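import Cfsg.Agent.H10.Cores
import Cfsg.Agent.H3.PNil
import Cfsg.Agent.H4.Burnside

set_option autoImplicit false
open Subgroup Cfsg

namespace Cfsg.Agent.MxN

variable {X : Type*} [Group X]

/-- At most two primes divide the order. -/
def PQ (H : Subgroup X) : Prop :=
  ∃ p q : ℕ, p.Prime ∧ q.Prime ∧ ∀ r : ℕ, r.Prime → r ∣ Nat.card H → r = p ∨ r = q

/-- Nontrivial subgroups with at most two primes have maximal normalizers. -/
def Hz (X : Type*) [Group X] : Prop :=
  ∀ H : Subgroup X, H ≠ ⊥ → PQ H → IsCoatom (normalizer (H : Set X))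

theorem Hz.eq (h : Hz X) {A B : Subgroup X} (hA : A ≠ ⊥) (hB : B ≠ ⊥) (pA : PQ A) (pB : PQ B)
    (hle : normalizer (A : Set X) ≤ normalizer (B : Set X)) :
    normalizer (B : Set X) = normalizer (A : Set X) :=
  ((h A hA pA).le_iff.1 hle).resolve_left (h B hB pB).1

theorem pq_of_pow [Finite X] {H : Subgroup X} {p q : ℕ} (hp : p.Prime) (hq : q.Prime)
    (h : ∀ g ∈ H, ∃ a b, g ^ (p ^ a * q ^ b) = 1) : PQ H := by
  refine ⟨p, q, hp, hq, fun r hr hd => ?_⟩
  haveI := Fact.mk hr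
  obtain ⟨g, hg⟩ := exists_prime_orderOf_dvd_card' r hd
  obtain ⟨a, b, e⟩ := h g g.2
  have : r ∣ p ^ a * q ^ b := by
    rw [← hg, ← Subgroup.orderOf_coe]; exact orderOf_dvd_of_pow_eq_one e
  exact ((Nat.Prime.dvd_mul hr).mp this).imp
    (fun h => (Nat.prime_dvd_prime_iff_eq hr hp).mp (hr.dvd_of_dvd_pow h))
    (fun h => (Nat.prime_dvd_prime_iff_eq hr hq).mp (hr.dvd_of_dvd_pow h))

theorem pq_of_pg [Finite X] {H : Subgroup X} {p : ℕ} (hp : p.Prime) (h : IsPGroup p H) : PQ H :=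
  pq_of_pow hp hp fun g hg => by
    obtain ⟨k, hk⟩ := h ⟨g, hg⟩
    exact ⟨k, 0, by simpa using congrArg Subtype.val hk⟩

theorem pq_zp [Finite X] {g : X} {p q a b : ℕ} (hp : p.Prime) (hq : q.Prime)
    (h : g ^ (p ^ a * q ^ b) = 1) : PQ (zpowers g) :=
  pq_of_pow hp hq fun x hx => by
    obtain ⟨k, rfl⟩ := hx
    exact ⟨a, b, by rw [← zpow_natCast, ← zpow_mul, mul_comm, zpow_mul, zpow_natCast, h, one_zpow]⟩

theorem mem_norm_zp [Finite X] {c g : X} :
    c ∈ normalizer (zpowers g : Set X) ↔ c * g * c⁻¹ ∈ zpowers g := by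
  refine ⟨fun h => (mem_normalizer_iff.1 h g).1 (mem_zpowers g), fun h => ?_⟩
  refine mem_normalizer_fintype fun n hn => ?_
  obtain ⟨k, rfl⟩ := hn
  have : c * g ^ k * c⁻¹ = (c * g * c⁻¹) ^ k := by simp [conj_zpow]
  simp only [SetLike.mem_coe] at *
  rw [this]; exact zpow_mem h k

theorem norm_zp_le [Finite X] {g x : X} (hx : x ∈ zpowers g) :
    normalizer (zpowers g : Set X) ≤ normalizer (zpowers x : Set X) := by
  intro c hc
  rw [mem_norm_zp] at hc ⊢
  obtain ⟨k, rfl⟩ := hx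
  obtain ⟨j, hj⟩ := hc
  refine ⟨j, ?_⟩
  have : c * g ^ k * c⁻¹ = (c * g * c⁻¹) ^ k := by simp [conj_zpow]
  simp only at hj ⊢
  rw [this, ← hj, ← zpow_mul, ← zpow_mul, mul_comm]

theorem left_mem [Finite X] {x y : X} {m n : ℕ} (hc : x * y = y * x) (hx : x ^ m = 1) (hy : y ^ n = 1)
    (hmn : m.Coprime n) : x ∈ zpowers (x * y) := by
  have h1 : (x * y) ^ n = x ^ n := by rw [Commute.mul_pow hc, hy, mul_one]
  have h2 : n.Coprime (orderOf x) :=
    (Nat.Coprime.coprime_dvd_left (orderOf_dvd_of_pow_eq_one hx) hmn).symm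
  have : x ∈ zpowers (x ^ n) := mem_zpowers_pow_iff.2 h2
  exact (zpowers_le.2 (h1 ▸ pow_mem (mem_zpowers _) n)) this

/-- Commuting prime power elements for different primes have the same normalizer. -/
theorem Hz.b1 [Finite X] (h : Hz X) {x y : X} {p q a b : ℕ} (hp : p.Prime) (hq : q.Prime) (hpq : p ≠ q)
    (hx : x ^ p ^ a = 1) (hy : y ^ q ^ b = 1) (x1 : x ≠ 1) (y1 : y ≠ 1) (hc : x * y = y * x) :
    normalizer (zpowers x : Set X) = normalizer (zpowers y : Set X) := by
  have hco : (p ^ a).Coprime (q ^ b) := Nat.Coprime.pow _ _ ((Nat.coprime_primes hp hq).2 hpq)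
  have m1 := left_mem hc hx hy hco
  have m2 : y ∈ zpowers (x * y) := hc ▸ left_mem hc.symm hy hx hco.symm
  have g1 : zpowers (x * y) ≠ ⊥ := fun e => x1 (mem_bot.1 (e ▸ m1))
  have pg : PQ (zpowers (x * y)) := pq_zp (a := a) (b := b) hp hq (by
    rw [Commute.mul_pow hc, pow_mul, hx, one_pow, mul_comm (p ^ a), pow_mul, hy, one_pow, one_mul])
  have px : PQ (zpowers x) := pq_zp (a := a) (b := 0) hp hp (by simpa using hx)
  have py : PQ (zpowers y) := pq_zp (a := b) (b := 0) hq hq (by simpa using hy)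
  rw [h.eq g1 (by simpa using x1) pg px (norm_zp_le m1), h.eq g1 (by simpa using y1) pg py (norm_zp_le m2)]

theorem norm_invol [Finite X] {t c : X} (ht : t * t = 1) :
    c ∈ normalizer (zpowers t : Set X) ↔ c * t = t * c := by
  rw [mem_norm_zp]
  refine ⟨fun h => ?_, fun h => by rw [h]; simp⟩
  by_cases h1 : t = 1
  · simp [h1]
  obtain ⟨k, hk⟩ := h
  simp only at hk
  have t2 : t ^ (2 : ℤ) = 1 := by rw [zpow_two, ht]
  rcases Int.emod_two_eq_zero_or_one k with e | e
  · rw [zpow_eq_zpow_emod k t2, e, zpow_zero, eq_comm, conj_eq_one_iff] at hk; exact absurd hk h1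
  · rw [zpow_eq_zpow_emod k t2, e, zpow_one, eq_mul_inv_iff_mul_eq] at hk; exact hk.symm

theorem mem_dih {x s g : X} (hs : s * s = 1) (hx : s * x * s⁻¹ = x⁻¹) (hg : g ∈ closure {x, s}) :
    g ∈ zpowers x ∨ g * s ∈ zpowers x := by
  have si : s⁻¹ = s := inv_eq_of_mul_eq_one_right hs
  have cj : ∀ u ∈ zpowers x, s * u * s ∈ zpowers x := by
    rintro _ ⟨k, rfl⟩
    have : s * x ^ k * s = (s * x * s⁻¹) ^ k := by rw [conj_zpow, si]
    simp only; rw [this, hx]; exact zpow_mem (inv_mem (mem_zpowers x)) k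
  induction hg using closure_induction with
  | mem g hg =>
    rcases hg with rfl | rfl
    · exact .inl (mem_zpowers _)
    · exact .inr (hs ▸ one_mem _)
  | one => exact .inl (one_mem _)
  | mul a b _ _ ha hb =>
    rcases ha with ha | ha <;> rcases hb with hb | hb
    · exact .inl (mul_mem ha hb)
    · exact .inr (mul_assoc a b s ▸ mul_mem ha hb)
    · refine .inr ?_
      have := mul_mem ha (cj b hb)
      rwa [show a * s * (s * b * s) = a * (s * s) * b * s by group, hs, mul_one] at this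
    · refine .inl ?_
      have := mul_mem ha (cj _ hb)
      rwa [show a * s * (s * (b * s) * s) = a * (s * s) * b * (s * s) by group, hs, mul_one, mul_one] at this
  | inv a _ ha =>
    rcases ha with ha | ha
    · exact .inl (inv_mem ha)
    · refine .inr ?_
      have := cj _ (inv_mem ha)
      rwa [mul_inv_rev, si, show s * (s * a⁻¹) * s = (s * s) * a⁻¹ * s by group, hs, one_mul] at this

/-- The dihedral test. -/
theorem Hz.f4 [Finite X] (h : Hz X) {x s y : X} {r : ℕ} (hr : r.Prime) (r2 : r ≠ 2) (ox : orderOf x = r)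
    (hs : s * s = 1) (hx : s * x * s⁻¹ = x⁻¹) (hy : y * x = x * y) (hy' : s * y * s⁻¹ = y⁻¹) :
    y * y ∈ zpowers x := by
  have si : s⁻¹ = s := inv_eq_of_mul_eq_one_right hs
  have xr : x ^ r = 1 := ox ▸ pow_orderOf_eq_one x
  have x1 : x ≠ 1 := by rintro rfl; rw [orderOf_one] at ox; exact hr.one_lt.ne ox
  have odd : ∀ g : X, g ^ r = 1 → g * g = 1 → g = 1 := fun g h1 h2 => by
    have := Nat.dvd_gcd (orderOf_dvd_of_pow_eq_one h1) (orderOf_dvd_of_pow_eq_one ((sq g).trans h2))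
    rw [(Nat.coprime_primes hr Nat.prime_two).2 r2, Nat.dvd_one, orderOf_eq_one_iff] at this
    exact this
  have cj : ∀ u ∈ zpowers x, s * u * s = u⁻¹ := by
    rintro _ ⟨k, rfl⟩
    have : s * x ^ k * s = (s * x * s⁻¹) ^ k := by rw [conj_zpow, si]
    simp only; rw [this, hx, inv_zpow]
  have inv : ∀ g, g * s ∈ zpowers x → g * g = 1 := fun g hg => by
    have := cj _ hg
    rw [mul_inv_rev, si, show s * (g * s) * s = s * g * (s * s) by group, hs, mul_one,
      mul_left_cancel_iff] at this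
    nth_rw 1 [this]; simp
  have ur : ∀ u ∈ zpowers x, u ^ r = 1 := by
    rintro _ ⟨k, rfl⟩
    simp only; rw [← zpow_natCast, ← zpow_mul, mul_comm, zpow_mul, zpow_natCast, xr, one_zpow]
  have xH : x ∈ closure {x, s} := subset_closure (by simp)
  have sH : s ∈ closure {x, s} := subset_closure (by simp)
  have e := h.eq (A := closure {x, s}) (B := zpowers x) (fun e => x1 (mem_bot.1 (e ▸ xH)))
    (by simpa using x1) (pq_of_pow hr Nat.prime_two fun g hg => ⟨1, 1, by
      rcases mem_dih hs hx hg with h1 | h1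
      · rw [pow_one, pow_mul, ur g h1, one_pow]
      · rw [pow_one, pow_one, mul_comm, pow_mul, sq, inv g h1, one_pow]⟩)
    (pq_zp (a := 1) (b := 0) hr hr (by simpa using xr)) (fun c hc => by
      rw [mem_norm_zp]
      refine (mem_dih hs hx ((mem_normalizer_iff.1 hc x).1 xH)).resolve_right fun h1 => x1 ?_
      have := odd _ (by rw [conj_pow, xr]; simp) (inv _ h1)
      rwa [conj_eq_one_iff] at this)
  have yN : y ∈ normalizer (closure {x, s} : Set X) := by
    rw [← e, mem_norm_zp, hy]; simp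
  have h1 := mul_mem ((mem_normalizer_iff.1 yN s).1 sH) (inv_mem sH)
  have h2 : y * s * y⁻¹ * s⁻¹ = y * y := by
    rw [show y * s * y⁻¹ * s⁻¹ = y * (s * y * s⁻¹)⁻¹ by group, hy', inv_inv]
  rw [h2] at h1
  refine (mem_dih hs hx h1).resolve_right fun h3 => x1 (odd x xr ?_)
  have c1 : Commute (y * y * s) x := by obtain ⟨k, hk⟩ := h3; rw [← hk]; exact Commute.zpow_self x k
  have c2 : Commute (y * y) x := Commute.mul_left hy hy
  have c3 : Commute s x := by
    have := c2.inv_left.mul_left c1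
    rwa [inv_mul_cancel_left] at this
  rw [c3.eq, mul_inv_cancel_right] at hx
  nth_rw 1 [hx]; simp

theorem Hz.f4' [Finite X] (h : Hz X) {Y : Type*} [Group Y] {f : Y →* X} (hf : Function.Injective f)
    {x s y : Y} {r : ℕ} (hr : r.Prime) (r2 : r ≠ 2) (ox : orderOf x = r)
    (hs : s * s = 1) (hx : s * x * s⁻¹ = x⁻¹) (hy : y * x = x * y) (hy' : s * y * s⁻¹ = y⁻¹) :
    y * y ∈ zpowers x := by
  obtain ⟨k, hk⟩ := h.f4 (x := f x) (s := f s) (y := f y) hr r2 (by rw [orderOf_injective f hf, ox])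
    (by rw [← map_mul, hs, map_one]) (by rw [← map_inv, ← map_mul, ← map_mul, hx, map_inv])
    (by rw [← map_mul, hy, map_mul]) (by rw [← map_inv, ← map_mul, ← map_mul, hy', map_inv])
  exact ⟨k, hf (by simpa using hk)⟩

/-- The centralizer test. -/
theorem Hz.f5 [Finite X] (h : Hz X) {Y : Type*} [Group Y] {f : Y →* X} (hf : Function.Injective f)
    (hn : f.range.Normal) {u g : Y} {p : ℕ} (hp : p.Prime) (u1 : u ≠ 1)
    (hc : ∀ c, c * u = u * c → ∃ k, c ^ p ^ k = 1)
    (hg : ∀ c, c * u = u * c → (g * c * g⁻¹) * u = u * (g * c * g⁻¹)) : g * u * g⁻¹ ∈ zpowers u := by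
  have fu : f u ≠ 1 := fun e => u1 (hf (by rw [e, map_one]))
  have mem : ∀ x, x ∈ centralizer {f u} ⊓ f.range ↔ ∃ c, c * u = u * c ∧ f c = x := fun x => by
    rw [mem_inf, mem_centralizer_singleton_iff]
    constructor
    · rintro ⟨h1, c, rfl⟩; exact ⟨c, hf (by simpa using h1), rfl⟩
    · rintro ⟨c, h1, rfl⟩; exact ⟨by rw [← map_mul, h1, map_mul], c, rfl⟩
  obtain ⟨k, hk⟩ := hc u rfl
  have e := h.eq (A := zpowers (f u)) (B := centralizer {f u} ⊓ f.range) (by simpa using fu)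
    (fun e => fu (mem_bot.1 (e ▸ (mem _).2 ⟨u, rfl, rfl⟩)))
    (pq_zp (a := k) (b := 0) hp hp (by rw [pow_zero, mul_one, ← map_pow, hk, map_one]))
    (pq_of_pow hp hp fun x hx => by
      obtain ⟨c, h1, rfl⟩ := (mem x).1 hx
      obtain ⟨j, hj⟩ := hc c h1
      exact ⟨j, 0, by rw [pow_zero, mul_one, ← map_pow, hj, map_one]⟩)
    (fun c hc => mem_normalizer_fintype fun n hn' => by
      simp only [SetLike.mem_coe, mem_inf, mem_centralizer_singleton_iff] at hn' ⊢
      refine ⟨?_, hn.conj_mem _ hn'.2 c⟩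
      obtain ⟨j, hj⟩ := mem_norm_zp.1 (inv_mem hc)
      simp only [inv_inv] at hj
      have h1 : Commute n (c⁻¹ * f u * c) := hj ▸ (Commute.zpow_right hn'.1 j)
      have h2 := h1.eq
      calc c * n * c⁻¹ * f u = c * (n * (c⁻¹ * f u * c)) * c⁻¹ := by group
        _ = _ := by rw [h2]; group)
  have : f g ∈ normalizer ((centralizer {f u} ⊓ f.range : Subgroup X) : Set X) :=
    mem_normalizer_fintype fun n hn' => by
      obtain ⟨c, h1, rfl⟩ := (mem n).1 hn'
      exact (mem _).2 ⟨g * c * g⁻¹, hg c h1, by simp⟩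
  rw [e, mem_norm_zp] at this
  obtain ⟨j, hj⟩ := this
  exact ⟨j, hf (by simpa using hj)⟩

/-- Involution centralizers have normal 2-complements. -/
theorem Hz.npc [Finite X] (h : Hz X) {Y : Type*} [Group Y] {f : Y →* X} (hf : Function.Injective f)
    {t : Y} (ht : orderOf t = 2) : HasNormalPComplement 2 (centralizer ({t} : Set Y)) := by
  haveI : Finite Y := Finite.of_injective f hf
  haveI : Fact (Nat.Prime 2) := ⟨Nat.prime_two⟩
  set C := centralizer ({t} : Set Y)
  have t2 : f t * f t = 1 := by rw [← map_mul, ← sq, ← ht, pow_orderOf_eq_one, map_one]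
  have t1 : f t ≠ 1 := fun e => by
    have : t = 1 := hf (by rw [e, map_one])
    rw [this, orderOf_one] at ht; omega
  have key : ∀ (r k : ℕ) (w : C), r.Prime → r ≠ 2 → w ^ r ^ k = 1 → w ∈ pPrimeCore 2 C := by
    intro r k w hr r2 hw
    by_cases w1 : w = 1
    · rw [w1]; exact one_mem _
    have wt := mem_centralizer_singleton_iff.1 w.2
    have e := h.b1 (x := f w) (y := f t) (a := k) (b := 1) hr Nat.prime_two r2
      (by rw [← map_pow, ← Subgroup.coe_pow, hw]; simp) (by rw [pow_one, sq, t2])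
      (fun e => w1 (Subtype.ext (hf (by simpa using e)))) t1 (by rw [← map_mul, wt, map_mul])
    haveI : (zpowers w).Normal := by
      rw [← normalizer_eq_top_iff, eq_top_iff]
      intro c _
      have : f c ∈ normalizer (zpowers (f w) : Set X) := by
        rw [e, norm_invol t2, ← map_mul, mem_centralizer_singleton_iff.1 c.2, map_mul]
      obtain ⟨j, hj⟩ := mem_norm_zp.1 this
      exact mem_norm_zp.2 ⟨j, Subtype.ext (hf (by simpa using hj))⟩
    refine H10.le_pPrimeCore (N := zpowers w) ?_ (mem_zpowers w)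
    rw [Nat.card_zpowers]
    exact Nat.Coprime.coprime_dvd_left (orderOf_dvd_of_pow_eq_one hw)
      (Nat.Coprime.pow_left _ ((Nat.coprime_primes hr Nat.prime_two).2 r2))
  refine H3.hasNormalPComplement_of_normal (pPrimeCore 2 C)
    ((Nat.Prime.coprime_iff_not_dvd Nat.prime_two).1 (H10.pPrimeCore_coprime 2 C).symm) ?_
  rw [IsPGroup.iff_card]
  refine ⟨_, Nat.eq_prime_pow_of_unique_prime_dvd Nat.card_pos.ne' fun {r} hr hd => ?_⟩
  by_contra r2
  haveI := Fact.mk hr
  obtain ⟨P⟩ : Nonempty (Sylow r C) := inferInstance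
  have : (P : Subgroup C) ≤ pPrimeCore 2 C := fun w hw => by
    obtain ⟨k, hk⟩ := P.isPGroup' ⟨w, hw⟩
    exact key r k w hr r2 (by simpa using congrArg Subtype.val hk)
  exact P.not_dvd_index (hd.trans (index_dvd_of_le this))

end Cfsg.Agent.MxN
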