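import Cfsg.Agent.MxN.A
import Cfsg.Agent.H10.Comp
import Cfsg.Agent.H10.Local2

set_option autoImplicit false
open Subgroup Cfsg

namespace Cfsg.Agent.MxN

variable {X : Type*} [Group X]

theorem Hz.no_sub [Finite X] (h : Hz X) {K : Subgroup X} (hK : K.IsSubnormal) {p : ℕ} (hp : p.Prime)
    (hP : IsPGroup p K) : K = ⊥ := by
  by_contra h0
  have h1 := H10.le_pCore_of_subnormal hK hP
  have := (h (pCore p X) (fun e => h0 (le_bot_iff.1 (e ▸ h1))) (pq_of_pg hp (H10.pCore_isPGroup' p X))).1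
  exact this (normalizer_eq_top _)

theorem Hz.no_norm [Finite X] (h : Hz X) {L : Subgroup X} (hL : L.IsSubnormal) {x : X} {p : ℕ}
    (hp : p.Prime) (ox : orderOf x = p) (xL : x ∈ L) (hn : L ≤ normalizer (zpowers x : Set X)) : False := by
  have := h.no_sub ((H10.SubnormalIn.of_normal (zpowers_le.2 xL) hn).isSubnormal hL) hp
    (IsPGroup.of_card (n := 1) (by rw [Nat.card_zpowers, ox, pow_one]))
  rw [zpowers_eq_bot] at this
  rw [this, orderOf_one] at ox; exact hp.one_lt.ne ox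

theorem exists_ord [Finite X] {L : Subgroup X} {p : ℕ} (hp : p.Prime) (h : p ∣ Nat.card L) :
    ∃ x ∈ L, orderOf x = p := by
  haveI := Fact.mk hp
  obtain ⟨g, hg⟩ := exists_prime_orderOf_dvd_card' p h
  exact ⟨g, g.2, by rw [Subgroup.orderOf_coe, hg]⟩

theorem Hz.exists_simple [Finite X] [Nontrivial X] (h : Hz X) :
    ∃ L : Subgroup X, L.Normal ∧ IsSimpleGroup L ∧ ¬ IsMulCommutative L := by
  obtain ⟨L, ⟨h1, h0⟩, hmin⟩ := (wellFounded_lt (α := Subgroup X)).has_min
    {K : Subgroup X | K.IsSubnormal ∧ K ≠ ⊥} ⟨⊤, .top, top_ne_bot⟩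
  haveI : Nontrivial L := (nontrivial_iff_ne_bot L).2 h0
  haveI hs : IsSimpleGroup L := ⟨fun N hN => by
    by_cases e : N.map L.subtype = ⊥
    · exact .inl ((map_eq_bot_iff_of_injective _ L.subtype_injective).1 e)
    · refine .inr (map_injective L.subtype_injective ?_)
      rw [← MonoidHom.range_eq_map, range_subtype]
      exact (map_subtype_le N).eq_or_lt.resolve_right
        (hmin _ ⟨(H10.SubnormalIn.map_subtype hN.isSubnormal).isSubnormal h1, e⟩)⟩
  obtain ⟨p, hp, hd⟩ := Nat.exists_prime_and_dvd (Finite.one_lt_card (α := L)).ne'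
  obtain ⟨x, xL, ox⟩ := exists_ord hp hd
  have hc : ¬ IsMulCommutative L := fun hc => h.no_norm h1 hp ox xL fun c cL => by
    rw [mem_norm_zp, show c * x = x * c from
      congrArg Subtype.val (mul_comm' (⟨c, cL⟩ : L) ⟨x, xL⟩), mul_inv_cancel_right]
    exact mem_zpowers x
  have cL : H10.CompOf L ⊤ := ⟨H10.subnormalIn_top.2 h1, H10.isQuasisimple_of_simple hc⟩
  refine ⟨L, ⟨fun n hn g => ?_⟩, hs, hc⟩
  have cg := cL.conj (g := g) (by rw [normalizer_eq_top]; trivial)
  rcases cL.eq_or cg with e | e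
  · rw [e]; exact ⟨n, hn, rfl⟩
  exfalso
  have : ∃ q, q.Prime ∧ q ∣ Nat.card L ∧ q ≠ p := by
    by_contra! hq
    exact h0 (h.no_sub h1 hp (IsPGroup.of_card
      (Nat.eq_prime_pow_of_unique_prime_dvd Nat.card_pos.ne' fun {r} hr hd => hq r hr hd)))
  obtain ⟨q, hq, qd, qp⟩ := this
  obtain ⟨y, yL, oy⟩ := exists_ord hq qd
  have cm : ∀ c ∈ L, c * (g * y * g⁻¹) = (g * y * g⁻¹) * c := fun c cL => by
    have := commutator_mem_commutator (H₂ := L.map (MulAut.conj g).toMonoidHom) cL ⟨y, yL, rfl⟩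
    rw [e, mem_bot, commutatorElement_eq_one_iff_mul_comm] at this
    exact this
  have e2 := h.b1 (x := x) (y := g * y * g⁻¹) (a := 1) (b := 1) hp hq qp.symm
    (by rw [pow_one, ← ox, pow_orderOf_eq_one]) (by rw [pow_one, conj_pow, ← oy, pow_orderOf_eq_one]; simp)
    (by rintro rfl; rw [orderOf_one] at ox; exact hp.one_lt.ne ox)
    (by rw [Ne, conj_eq_one_iff]; rintro rfl; rw [orderOf_one] at oy; exact hq.one_lt.ne oy) (cm x xL)
  refine h.no_norm h1 hp ox xL fun c cL => ?_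
  rw [e2, mem_norm_zp, cm c cL, mul_inv_cancel_right]; exact mem_zpowers _

theorem le_of_pp [Finite X] {C L : Subgroup X}
    (h : ∀ (r k : ℕ) (w : X), r.Prime → w ∈ C → w ^ r ^ k = 1 → w ∈ L) : C ≤ L := by
  have : (⊤ : Subgroup C) ≤ L.subgroupOf C := by
    rw [← H10.iSup_sylow_eq_top]
    refine iSup_le fun p => iSup_le fun P w hw => ?_
    obtain ⟨k, hk⟩ := P.isPGroup' ⟨w, hw⟩
    exact h p k w p.2 w.2 (by simpa using congrArg (fun x => ((x : P) : C).1) hk)
  exact fun c hc => this (mem_top (⟨c, hc⟩ : C))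

theorem mem_of_pow [Finite X] {L : Subgroup X} {w : X} {m n : ℕ} (hw : w ^ m = 1) (hmn : m.Coprime n)
    (h : w ^ n ∈ L) : w ∈ L :=
  (zpowers_le.2 h) (mem_zpowers_pow_iff.2
    (Nat.Coprime.coprime_dvd_left (orderOf_dvd_of_pow_eq_one hw) hmn).symm)

/-- A normal subgroup with four-groups as Sylow 2-subgroups is the whole group. -/
theorem Hz.xeq [Finite X] (h : Hz X) {L : Subgroup X} [hL : L.Normal] {z s x y : X} (zL : z ∈ L)
    (yL : y ∈ L) (hz : z * z = 1) (z1 : z ≠ 1) (zs : z * s = s * z) (yz : y * z * y⁻¹ = s)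
    (ys : y * s * y⁻¹ = z * s) (y3 : y ^ 3 = 1) (x3 : x ^ 3 = 1) (x1 : x ≠ 1) (xz : x * z = z * x)
    (sx : s * x * s⁻¹ = x⁻¹) (h8 : ¬ 8 ∣ Nat.card L) : L = ⊤ := by
  haveI : Fact (Nat.Prime 2) := ⟨Nat.prime_two⟩
  have hs : s * s = 1 := by rw [← yz, show y * z * y⁻¹ * (y * z * y⁻¹) = y * (z * z) * y⁻¹ by group, hz]; simp
  have si : s⁻¹ = s := inv_eq_of_mul_eq_one_right hs
  have zi : z⁻¹ = z := inv_eq_of_mul_eq_one_right hz
  have s1 : s ≠ 1 := by rw [← yz, Ne, conj_eq_one_iff]; exact z1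
  have sL : s ∈ L := yz ▸ hL.conj_mem z zL y
  have zs1 : z * s ≠ 1 := by rw [← ys, Ne, conj_eq_one_iff]; exact s1
  have zne : z ≠ s := fun e => zs1 (by rw [← e, hz])
  have yzs : y * (z * s) * y⁻¹ = z := by
    rw [show y * (z * s) * y⁻¹ = (y * z * y⁻¹) * (y * s * y⁻¹) by group, yz, ys, zs, ← mul_assoc, hs, one_mul]
  have y1 : y ≠ 1 := by rintro rfl; exact zne (by simpa using yz)
  have pz : PQ (zpowers z) := pq_zp (a := 1) (b := 0) Nat.prime_two Nat.prime_two (by simpa [sq] using hz)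
  have cC := h (zpowers z) (by simpa using z1) pz
  -- odd elements of the centralizer
  have hodd : ∀ (r k : ℕ) (w : X), r.Prime → r ≠ 2 → w * z = z * w → w ^ r ^ k = 1 → w ∈ L := by
    intro r k w hr r2 wz hw
    by_cases w1 : w = 1
    · rw [w1]; exact one_mem _
    have e := h.b1 (a := k) (b := 1) hr Nat.prime_two r2 hw (by rw [pow_one, sq, hz]) w1 z1 wz
    have sN : s * w * s⁻¹ ∈ zpowers w := by rw [← mem_norm_zp, e, norm_invol hz, zs]
    have uw : s * w * s⁻¹ * w ∈ zpowers w := mul_mem sN (mem_zpowers w)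
    have c1 : Commute (s * w * s⁻¹) w := by obtain ⟨j, hj⟩ := sN; rw [← hj]; exact Commute.zpow_self w j
    have u1 : s * w * s⁻¹ * w = 1 := by
      by_contra u1
      have ur : (s * w * s⁻¹ * w) ^ r ^ k = 1 := by rw [c1.mul_pow, conj_pow, hw]; simp
      have uz : Commute (s * w * s⁻¹ * w) z := by
        obtain ⟨j, hj⟩ := uw; rw [← hj]; exact Commute.zpow_left wz j
      have us : s * w * s⁻¹ * w * s = s * (s * w * s⁻¹ * w) := by
        rw [c1.eq]; nth_rw 2 [← c1.eq]
        rw [si, show w * (s * w * s) * s = w * s * w * (s * s) by group,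
          show s * (s * w * s * w) = (s * s) * w * s * w by group, hs]; group
      have e1 := h.b1 (a := k) (b := 1) hr Nat.prime_two r2 ur (by rw [pow_one, sq, hz]) u1 z1 uz
      have e2 := h.b1 (a := k) (b := 1) hr Nat.prime_two r2 ur (by rw [pow_one, sq, hs]) u1 s1 us
      have : x * s = s * x := by rw [← norm_invol hs, ← e2, e1, norm_invol hz, xz]
      rw [← this, mul_inv_cancel_right] at sx
      exact x1 (by rw [← x3, pow_succ, sq]; nth_rw 2 [sx]; simp)
    refine mem_of_pow hw (Nat.Coprime.pow_left k ((Nat.coprime_primes hr Nat.prime_two).2 r2)) ?_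
    have := mul_mem (hL.conj_mem s⁻¹ (inv_mem sL) w⁻¹) sL
    have e3 : s * w * s⁻¹ = w⁻¹ := eq_inv_of_mul_eq_one_left u1
    rw [show w⁻¹ * s⁻¹ * w⁻¹⁻¹ * s = w⁻¹ * (s⁻¹ * w * s⁻¹⁻¹) by group, si, e3, ← inv_mem_iff] at this
    simpa [sq] using this
  -- a Sylow 2-subgroup
  have dz : s * z * s⁻¹ = z⁻¹ := by rw [← zs, zi, mul_inv_cancel_right]
  have pV : IsPGroup 2 (closure {z, s} : Subgroup X) := fun g => ⟨1, Subtype.ext (by
    have zz : ∀ u ∈ zpowers z, u * u = 1 ∧ Commute u s := by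
      rintro _ ⟨k, rfl⟩
      exact ⟨by simp only; rw [← (Commute.refl z).mul_zpow, hz, one_zpow], Commute.zpow_left zs k⟩
    simp only [pow_one, sq, coe_mul, coe_one]
    rcases mem_dih hs dz g.2 with h1 | h1
    · exact (zz _ h1).1
    · have h2 := (zz _ h1).1
      have h3 : Commute (g : X) s := by
        have := (zz _ h1).2.mul_left (Commute.refl s)
        rwa [mul_assoc, hs, mul_one] at this
      rwa [show (g : X) * s * (g * s) = g * (s * g) * s by group, ← h3.eq,
        show (g : X) * (g * s) * s = g * g * (s * s) by group, hs, mul_one] at h2)⟩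
  obtain ⟨T, hT⟩ := pV.exists_le_sylow
  have zT : z ∈ (T : Subgroup X) := hT (subset_closure (by simp))
  have sT : s ∈ (T : Subgroup X) := hT (subset_closure (by simp))
  have pW : IsPGroup 2 ((T : Subgroup X) ⊓ L : Subgroup X) := T.isPGroup'.to_inf_left
  have hW : ((((T : Subgroup X) ⊓ L : Subgroup X)) : Set X) = {1, z, s, z * s} := by
    symm
    refine Set.eq_of_subset_of_ncard_le ?_ ?_ (Set.toFinite _)
    · rintro _ (rfl | rfl | rfl | rfl)
      exacts [one_mem _, ⟨zT, zL⟩, ⟨sT, sL⟩, mul_mem ⟨zT, zL⟩ ⟨sT, sL⟩]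
    · rw [Set.ncard_eq_four.2 ⟨1, z, s, z * s, z1.symm, s1.symm, zs1.symm, zne, by simpa using s1,
        by simpa using z1, rfl⟩]
      obtain ⟨n, hn⟩ := IsPGroup.iff_card.1 pW
      have d := card_dvd_of_le (inf_le_right : (T : Subgroup X) ⊓ L ≤ L)
      rw [← Nat.card_coe_set_eq]
      change Nat.card ((T : Subgroup X) ⊓ L : Subgroup X) ≤ 4
      rw [hn] at d ⊢
      by_contra! h4
      have : 3 ≤ n := by
        by_contra! h5; interval_cases n <;> omega
      exact h8 ((pow_dvd_pow 2 this).trans d)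
  have mW : ∀ g, g ∈ (T : Subgroup X) → g ∈ L → g = 1 ∨ g = z ∨ g = s ∨ g = z * s := fun g h1 h2 => by
    have : g ∈ ((((T : Subgroup X) ⊓ L : Subgroup X)) : Set X) := ⟨h1, h2⟩
    rw [hW] at this; simpa using this
  have W0 : ((T : Subgroup X) ⊓ L : Subgroup X) ≠ ⊥ := fun e => z1 (mem_bot.1 (e ▸ ⟨zT, zL⟩))
  have nle : normalizer ((T : Subgroup X) : Set X) ≤ normalizer (((T : Subgroup X) ⊓ L : Subgroup X) : Set X) :=
    fun c hc => mem_normalizer_fintype fun n hn =>
      ⟨(mem_normalizer_iff.1 hc n).1 hn.1, hL.conj_mem n hn.2 c⟩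
  have eN := h.eq (fun e => z1 (mem_bot.1 (e ▸ zT))) W0 (pq_of_pg Nat.prime_two T.isPGroup')
    (pq_of_pg Nat.prime_two pW) nle
  have yN : y ∈ normalizer ((T : Subgroup X) : Set X) := by
    rw [← eN]
    refine mem_normalizer_fintype fun n hn => ?_
    rw [hW] at hn ⊢
    rcases hn with rfl | rfl | rfl | rfl <;> simp [yz, ys, yzs]
  have cy : ∀ v, (∀ t ∈ (T : Subgroup X), t * v = v * t) →
      ∀ t ∈ (T : Subgroup X), t * (y * v * y⁻¹) = y * v * y⁻¹ * t := fun v hv t ht => by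
    have := hv _ ((mem_normalizer_iff.1 (inv_mem yN) t).1 ht)
    calc t * (y * v * y⁻¹) = y * (y⁻¹ * t * y⁻¹⁻¹ * v) * y⁻¹ := by group
      _ = _ := by rw [this]; group
  have cz : ∀ t ∈ (T : Subgroup X), t * z = z * t := by
    obtain ⟨v, hv, ov, hc⟩ := H10.exists_central_orderOf pW T.isPGroup' (le_normalizer.trans nle) W0
    have hc' : ∀ t ∈ (T : Subgroup X), t * v = v * t := fun t ht => mem_centralizer_singleton_iff.1 (hc ht)
    rcases mW v hv.1 hv.2 with rfl | rfl | rfl | rfl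
    · simp at ov
    · exact hc'
    · have := cy _ (cy _ hc'); rwa [ys, yzs] at this
    · have := cy _ hc'; rwa [yzs] at this
  have cs : ∀ t ∈ (T : Subgroup X), t * s = s * t := yz ▸ cy z cz
  have TL : (T : Subgroup X) ≤ L := by
    intro t ht
    have cV : ∀ v ∈ (T : Subgroup X), v ∈ L → ∀ t ∈ (T : Subgroup X), Commute t v := fun v h1 h2 t ht => by
      rcases mW v h1 h2 with rfl | rfl | rfl | rfl
      exacts [Commute.one_right t, cz t ht, cs t ht, Commute.mul_right (cz t ht) (cs t ht)]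
    have t1 := (mem_normalizer_iff.1 yN t).1 ht
    have t2 := (mem_normalizer_iff.1 yN _).1 t1
    have l1 : y * t * y⁻¹ * t⁻¹ ∈ L := by
      have := mul_mem yL (hL.conj_mem _ (inv_mem yL) t); rwa [← mul_assoc, ← mul_assoc] at this
    have l2 : y * (y * t * y⁻¹) * y⁻¹ * t⁻¹ ∈ L := by
      have := mul_mem (mul_mem yL yL) (hL.conj_mem _ (inv_mem (mul_mem yL yL)) t)
      rwa [show y * y * (t * (y * y)⁻¹ * t⁻¹) = y * (y * t * y⁻¹) * y⁻¹ * t⁻¹ by group] at this
    have c1 : Commute t (y * t * y⁻¹) := by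
      have := (cV _ (mul_mem t1 (inv_mem ht)) l1 t ht).mul_right (Commute.refl t)
      rwa [inv_mul_cancel_right] at this
    have c2 : Commute t (y * (y * t * y⁻¹) * y⁻¹) := by
      have := (cV _ (mul_mem t2 (inv_mem ht)) l2 t ht).mul_right (Commute.refl t)
      rwa [inv_mul_cancel_right] at this
    set u := t * (y * t * y⁻¹) * (y * (y * t * y⁻¹) * y⁻¹) with hu
    have uT : u ∈ (T : Subgroup X) := mul_mem (mul_mem ht t1) t2
    have yu : y * u = u * y := by
      have e1 : y * u * y⁻¹ = (y * t * y⁻¹) * (y * (y * t * y⁻¹) * y⁻¹) * (y ^ 3 * t * (y ^ 3)⁻¹) := by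
        rw [hu]; group
      rw [y3, one_mul, inv_one, mul_one, ← (c1.mul_right c2).eq, ← mul_assoc t] at e1
      exact mul_inv_eq_iff_eq_mul.1 e1
    obtain ⟨k, hk⟩ := T.isPGroup' ⟨t, ht⟩
    have hk' : t ^ 2 ^ k = 1 := by simpa using congrArg Subtype.val hk
    refine mem_of_pow hk' (Nat.Coprime.pow_left k (by norm_num : Nat.Coprime 2 3)) ?_
    have u1 : u = 1 := by
      by_contra u1
      obtain ⟨j, hj⟩ := T.isPGroup' ⟨u, uT⟩
      have e := h.b1 (a := 1) (b := j) Nat.prime_three Nat.prime_two (by norm_num) (by simpa using y3)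
        (by simpa using congrArg Subtype.val hj) y1 u1 yu
      have : z * y * z⁻¹ ∈ zpowers y := by
        rw [← mem_norm_zp, e, mem_norm_zp, ← cz u uT, mul_inv_cancel_right]; exact mem_zpowers u
      obtain ⟨i, hi⟩ := mul_mem this (inv_mem (mem_zpowers y))
      simp only at hi
      rw [zi, show z * y * z * y⁻¹ = z * (y * z * y⁻¹) by group, yz] at hi
      have e3 : (z * s) ^ 3 = 1 := by
        rw [← hi, ← zpow_natCast, ← zpow_mul, mul_comm, zpow_mul, zpow_natCast, y3, one_zpow]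
      have e2 : (z * s) * (z * s) = 1 := by
        rw [show z * s * (z * s) = z * (s * z) * s by group, ← zs,
          show z * (z * s) * s = (z * z) * (s * s) by group, hz, hs, one_mul]
      exact zs1 (by rw [← e3, pow_succ, sq, e2, one_mul])
    have := mul_mem (hL.conj_mem _ l1 t) (hL.conj_mem _ l2 (t * t))
    rw [show t * (y * t * y⁻¹ * t⁻¹) * t⁻¹ * (t * t * (y * (y * t * y⁻¹) * y⁻¹ * t⁻¹) * (t * t)⁻¹) =
      u * (t ^ 3)⁻¹ by rw [hu]; group, u1, one_mul] at this
    exact inv_mem_iff.1 this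
  have CL : normalizer (zpowers z : Set X) ≤ L := le_of_pp fun r k w hr hw hk => by
    by_cases r2 : r = 2
    · subst r2
      have pw : IsPGroup 2 (zpowers w) := by
        obtain ⟨n, -, hn⟩ := (Nat.dvd_prime_pow Nat.prime_two).1 (orderOf_dvd_of_pow_eq_one hk)
        exact IsPGroup.of_card (by rw [Nat.card_zpowers, hn])
      obtain ⟨Q, hQ⟩ := pw.exists_le_sylow
      obtain ⟨g, rfl⟩ := MulAction.exists_smul_eq X T Q
      obtain ⟨t, ht, e⟩ := hQ (mem_zpowers w)
      rw [← e]; exact hL.conj_mem t (TL ht) g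
    · exact hodd r k w hr r2 ((norm_invol hz).1 hw) hk
  refine (cC.le_iff.1 CL).resolve_right fun e => zne ?_
  rw [e, norm_invol hz] at yL
  rw [← yz, yL, mul_inv_cancel_right]

/-- The Sylow test. -/
theorem Hz.f7 [Finite X] (h : Hz X) {Y : Type*} [Group Y] {f : Y →* X} (hf : Function.Injective f)
    (hn : f.range.Normal) {p : ℕ} (hp : p.Prime) (S : Sylow p Y) {V : Subgroup Y} (V0 : V ≠ ⊥)
    (VS : V ≤ S) (hS : normalizer ((S : Subgroup Y) : Set Y) ≤ normalizer (V : Set Y))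
    (hV : normalizer (V : Set Y) ≠ ⊤) :
    normalizer (V : Set Y) ≤ normalizer ((S : Subgroup Y) : Set Y) := by
  haveI : Finite Y := Finite.of_injective f hf
  haveI := Fact.mk hp
  have cm : ∀ A : Subgroup Y, (normalizer (A.map f : Set X)).comap f = normalizer (A : Set Y) := fun A => by
    rw [comap_normalizer_eq_of_le_range (map_le_range f A), comap_map_eq_self_of_injective hf]
  have V0' : V.map f ≠ ⊥ := fun e => V0 ((map_eq_bot_iff_of_injective _ hf).1 e)
  have pV := pq_of_pg hp ((S.isPGroup'.to_le VS).map f)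
  have cM := h _ V0' pV
  have top : f.range ⊔ normalizer (V.map f : Set X) = ⊤ := by
    refine (cM.le_iff.1 le_sup_right).resolve_right fun e => hV ?_
    rw [← cm, eq_top_iff]
    intro y _
    exact (le_sup_left.trans e.le) ⟨y, rfl⟩
  have key : normalizer ((S : Subgroup Y).map f : Set X) ≤ normalizer (V.map f : Set X) := by
    intro g hg
    have : g ∈ f.range ⊔ normalizer (V.map f : Set X) := top ▸ mem_top g
    obtain ⟨_, ⟨l, rfl⟩, m, hm, rfl⟩ := mem_sup_of_normal_left.1 this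
    have SM : (S : Subgroup Y) ≤ normalizer (V : Set Y) := le_normalizer.trans hS
    have S2 : ((l⁻¹ • S : Sylow p Y) : Subgroup Y) ≤ normalizer (V : Set Y) := by
      rintro _ ⟨a, ha, rfl⟩
      rw [← cm, mem_comap]
      obtain ⟨b, hb, e⟩ := (mem_normalizer_iff.1 (inv_mem hg) (f a)).1 ⟨a, ha, rfl⟩
      have hb' : f b ∈ normalizer (V.map f : Set X) := by rw [← mem_comap, cm]; exact SM hb
      have := mul_mem (mul_mem hm hb') (inv_mem hm)
      rw [e] at this
      convert this using 1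
      simp [mul_assoc]
    obtain ⟨n, hn⟩ := MulAction.exists_smul_eq (normalizer (V : Set Y)) ((l⁻¹ • S).subtype S2) (S.subtype SM)
    rw [Sylow.smul_subtype] at hn
    have e := Sylow.subtype_injective hn
    rw [Subgroup.smul_def, smul_smul, Sylow.smul_eq_iff_mem_normalizer] at e
    have : l ∈ normalizer (V : Set Y) := by
      have := mul_mem (inv_mem (hS e)) n.2
      simpa using this
    rw [← cm, mem_comap] at this
    exact mul_mem this hm
  have e := h.eq (fun e => V0' (le_bot_iff.1 (e ▸ map_mono VS))) V0' (pq_of_pg hp (S.isPGroup'.map f)) pV key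
  rw [← cm, ← cm, e]

end Cfsg.Agent.MxN
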