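import Mathlib

/-!
# Small explicit configurations in `PSL(3,4)` and `PSL(2,q)`
-/

set_option autoImplicit false
set_option linter.unusedSimpArgs false
set_option linter.unusedVariables false

namespace Cfsg.Agent.MxN

open Matrix Subgroup
open scoped MatrixGroups

namespace PE

variable {F : Type} [Field F]

theorem eq_iff {n : ℕ} (A B : SL(n, F)) : (A : PSL(n, F)) = B ↔ ∃ r : F, A.1 = r • B.1 := by
  rw [eq_comm, QuotientGroup.eq, Matrix.SpecialLinearGroup.mem_center_iff]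
  constructor
  · rintro ⟨r, -, h⟩
    refine ⟨r, ?_⟩
    have : A = B * (B⁻¹ * A) := by group
    rw [this, Matrix.SpecialLinearGroup.coe_mul, ← h, scalar_apply, ← smul_one_eq_diagonal, Matrix.mul_smul, mul_one]
  · rintro ⟨r, h⟩
    refine ⟨r, ?_, ?_⟩
    · have := A.2
      rw [h, det_smul, B.2, mul_one] at this
      exact this
    · rw [Matrix.SpecialLinearGroup.coe_mul, h, Matrix.mul_smul, ← Matrix.SpecialLinearGroup.coe_mul, inv_mul_cancel,
        scalar_apply, ← smul_one_eq_diagonal, Matrix.SpecialLinearGroup.coe_one]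

/-- upper unitriangular matrices -/
def U (b : F) : SL(2, F) := ⟨!![1, b; 0, 1], by simp [det_fin_two]⟩

theorem U_val (b : F) : (U b).1 = !![1, b; 0, 1] := rfl

theorem cm {n : ℕ} (A B : SL(n, F)) : (A * B).1 = A.1 * B.1 := rfl

theorem c1 {n : ℕ} : (1 : SL(n, F)).1 = 1 := rfl

theorem U_mul (a b : F) : U a * U b = U (a + b) := by
  apply Subtype.ext; rw [cm]; simp [U_val, add_comm]

theorem U_zero : U (0 : F) = 1 := by
  apply Subtype.ext; rw [c1, U_val, one_fin_two]

theorem U_pow (a : F) (k : ℕ) : U a ^ k = U (k * a) := by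
  induction k with
  | zero => simp [U_zero]
  | succ k ih => rw [pow_succ, ih, U_mul]; congr 1; push_cast; ring

theorem U_inj {a b : F} (h : (U a : PSL(2, F)) = U b) : a = b := by
  obtain ⟨r, h⟩ := (eq_iff _ _).1 h
  have h0 := congrFun (congrFun h 0) 0
  have h1 := congrFun (congrFun h 0) 1
  simp [U_val] at h0 h1
  rw [h1, ← h0, one_mul]

theorem cent (c : PSL(2, F)) (h : c * (U (1 : F) : SL(2, F)) = (U (1 : F) : SL(2, F)) * c) :
    ∃ b : F, c = (U b : SL(2, F)) := by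
  induction c using QuotientGroup.induction_on with
  | H C =>
  rw [← QuotientGroup.mk_mul, ← QuotientGroup.mk_mul] at h
  obtain ⟨r, h⟩ := (eq_iff _ _).1 h
  have hd := C.2
  rw [det_fin_two] at hd
  have h00 := congrFun (congrFun h 0) 0
  have h01 := congrFun (congrFun h 0) 1
  have h10 := congrFun (congrFun h 1) 0
  have h11 := congrFun (congrFun h 1) 1
  simp only [U_val, cm, mul_apply, Fin.sum_univ_two, Matrix.smul_apply, smul_eq_mul, of_apply,
    cons_val', cons_val_zero, cons_val_one, cons_val_fin_one, empty_val', mul_one, mul_zero, one_mul, zero_mul,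
    add_zero, zero_add] at h00 h01 h10 h11
  have hc : C.1 1 0 = 0 := by
    by_contra hc
    have hr : r = 1 := mul_right_cancel₀ hc (by rw [one_mul]; exact h10.symm)
    rw [hr] at h00
    exact hc (by linear_combination -h00)
  rw [hc] at hd h00 h11
  have ha : C.1 0 0 ≠ 0 := fun e => by rw [e] at hd; simp at hd
  have hr : r = 1 := mul_right_cancel₀ ha (by linear_combination -h00)
  rw [hr] at h01
  refine ⟨C.1 0 1 / C.1 0 0, (eq_iff _ _).2 ⟨C.1 0 0, ?_⟩⟩
  ext i j; fin_cases i <;> fin_cases j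
  · simp [U_val]
  · simp [U_val]; field_simp
  · simp [U_val, hc]
  · simp [U_val]; linear_combination -h01

/-- diagonal matrices -/
def D (l : F) (hl : l ≠ 0) : SL(2, F) := ⟨!![l, 0; 0, l⁻¹], by simp [det_fin_two, hl]⟩

theorem D_val (l : F) (hl : l ≠ 0) : (D l hl).1 = !![l, 0; 0, l⁻¹] := rfl

theorem D_U (l : F) (hl : l ≠ 0) (b : F) : D l hl * U b * (D l hl)⁻¹ = U (l * l * b) := by
  rw [mul_inv_eq_iff_eq_mul]
  apply Subtype.ext; rw [cm, cm]; simp [U_val, D_val]
  field_simp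

theorem exists_sq [Fintype F] (hF : ¬ (Fintype.card F).Prime) : ∃ l : F, ∀ k : ℕ, l * l ≠ k := by
  by_contra h
  push Not at h
  obtain ⟨p, hp⟩ := CharP.exists F
  have pp : p.Prime := CharP.char_is_prime F p
  haveI := Fact.mk pp
  have hs : ∀ l : F, l * l ∈ (ZMod.castHom (dvd_refl p) F).fieldRange := fun l => by
    obtain ⟨k, hk⟩ := h l
    rw [hk]; exact natCast_mem _ k
  have ha : ∀ a : F, a ∈ (ZMod.castHom (dvd_refl p) F).fieldRange := fun a => by
    by_cases h2 : (2 : F) = 0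
    · have : ringChar F = 2 := by
        have := (CharP.cast_eq_zero_iff F p 2).1 (by simpa using h2)
        rw [ringChar.eq F p]; exact (Nat.prime_dvd_prime_iff_eq pp Nat.prime_two).1 this
      obtain ⟨l, rfl⟩ := FiniteField.isSquare_of_char_two this a
      exact hs l
    · rw [show a = ((a + 1) * (a + 1) - a * a - 1 * 1) / ((2 : ℕ) : F) by push_cast; field_simp; ring]
      exact div_mem (sub_mem (sub_mem (hs _) (hs _)) (hs _)) (natCast_mem _ 2)
  have := Fintype.card_of_bijective (f := ZMod.castHom (dvd_refl p) F) ⟨RingHom.injective _, ha⟩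
  rw [ZMod.card] at this
  exact hF (this ▸ pp)

end PE

open PE

theorem e2 {F : Type} [Field F] [Fintype F] (hF : ¬ (Fintype.card F).Prime) :
    ∃ (u g : PSL(2,F)) (p : ℕ), p.Prime ∧ u ≠ 1 ∧ (∀ c, c*u = u*c → c^p = 1) ∧
      (∀ c, c*u = u*c → (g*c*g⁻¹)*u = u*(g*c*g⁻¹)) ∧ g*u*g⁻¹ ∉ Subgroup.zpowers u := by
  classical
  obtain ⟨l, hl⟩ := exists_sq hF
  have l0 : l ≠ 0 := fun e => hl 0 (by simp [e])
  obtain ⟨p, hp⟩ := CharP.exists F
  have e : ∀ b : F, ((D l l0 : SL(2, F)) : PSL(2, F)) * (U b : SL(2, F)) * ((D l l0 : SL(2, F)) : PSL(2, F))⁻¹ =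
      (U (l * l * b) : SL(2, F)) := fun b => by
    rw [← QuotientGroup.mk_inv, ← QuotientGroup.mk_mul, ← QuotientGroup.mk_mul, D_U]
  refine ⟨(U (1 : F) : SL(2, F)), (D l l0 : SL(2, F)), p, CharP.char_is_prime F p, fun h => ?_, fun c h => ?_,
    fun c h => ?_, fun h => ?_⟩
  · rw [← QuotientGroup.mk_one, ← U_zero] at h
    exact one_ne_zero (U_inj h)
  · obtain ⟨b, rfl⟩ := cent c h
    rw [← QuotientGroup.mk_pow, U_pow, CharP.cast_eq_zero, zero_mul, U_zero, QuotientGroup.mk_one]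
  · obtain ⟨b, rfl⟩ := cent c h
    rw [e, ← QuotientGroup.mk_mul, ← QuotientGroup.mk_mul, U_mul, U_mul, add_comm]
  · rw [e, ← mem_powers_iff_mem_zpowers] at h
    obtain ⟨k, hk⟩ := h
    simp only [← QuotientGroup.mk_pow, U_pow] at hk
    exact hl k (by simpa using (U_inj hk).symm)

theorem e3 {F : Type} [Field F] [Fintype F] (hF : Fintype.card F = 4) :
    ∃ x s y : PSL(3,F), orderOf x = 3 ∧ s*s = 1 ∧ s*x*s⁻¹ = x⁻¹ ∧ y*x = x*y ∧ s*y*s⁻¹ = y⁻¹ ∧
      y*y ∉ Subgroup.zpowers x := by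
  classical
  have h2 : (2 : F) = 0 := by
    have : ((4 : ℕ) : F) = 0 := hF ▸ FiniteField.cast_card_eq_zero F
    have h : (2 : F) * 2 = 0 := by rw [← this]; norm_num
    exact mul_self_eq_zero.1 h
  obtain ⟨w, w0, w1⟩ : ∃ w : F, w ≠ 0 ∧ w ≠ 1 := by
    by_contra h
    push Not at h
    have : (Finset.univ : Finset F) ⊆ {0, 1} := fun a _ => by
      by_cases ha : a = 0 <;> simp [ha, h a]
    have := (Finset.card_le_card this).trans Finset.card_le_two
    rw [Finset.card_univ, hF] at this; omega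
  have w3 : w * w * w = 1 := by
    have := FiniteField.pow_card_sub_one_eq_one w w0
    rw [hF] at this; rw [← this]; ring
  obtain ⟨X, hX⟩ : ∃ X : SL(3, F), X.1 = !![1, 0, 0; 0, w, 0; 0, 0, w * w] :=
    ⟨⟨_, by simp [det_fin_three]; linear_combination w3⟩, rfl⟩
  obtain ⟨S, hS⟩ : ∃ X : SL(3, F), X.1 = !![1, 0, 0; 0, 0, 1; 0, 1, 0] :=
    ⟨⟨_, by simp [det_fin_three]; linear_combination -h2⟩, rfl⟩
  obtain ⟨Y, hY⟩ : ∃ X : SL(3, F), X.1 = !![0, 1, 0; 0, 0, 1; 1, 0, 0] :=
    ⟨⟨_, by simp [det_fin_three]⟩, rfl⟩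
  have X3 : X ^ 3 = 1 := by
    apply Subtype.ext
    rw [pow_succ, pow_two, cm, cm, c1, hX, one_fin_three]
    simp
    exact ⟨w3, by linear_combination (w * w * w + 1) * w3⟩
  have ox : orderOf (X : PSL(3, F)) = 3 := by
    haveI := Fact.mk Nat.prime_three
    refine orderOf_eq_prime (by rw [← QuotientGroup.mk_pow, X3, QuotientGroup.mk_one]) fun h => ?_
    rw [← QuotientGroup.mk_one] at h
    obtain ⟨r, h⟩ := (eq_iff _ _).1 h
    have h0 := congrFun (congrFun h 0) 0
    have h1 := congrFun (congrFun h 1) 1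
    simp [hX, c1] at h0 h1
    exact w1 (h1.trans h0.symm)
  have SS : S * S = 1 := by
    apply Subtype.ext
    rw [cm, c1, hS, one_fin_three]
    simp
  have SX : S * X * S⁻¹ = X⁻¹ := by
    rw [inv_eq_of_mul_eq_one_right SS, eq_inv_iff_mul_eq_one]
    apply Subtype.ext
    rw [cm, cm, cm, c1, hS, hX, one_fin_three]
    simp
    exact ⟨w3, by linear_combination w3⟩
  have SY : S * Y * S⁻¹ = Y⁻¹ := by
    rw [inv_eq_of_mul_eq_one_right SS, eq_inv_iff_mul_eq_one]
    apply Subtype.ext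
    rw [cm, cm, cm, c1, hS, hY, one_fin_three]
    simp
  refine ⟨X, S, Y, ox, by rw [← QuotientGroup.mk_mul, SS, QuotientGroup.mk_one], ?_, ?_, ?_, fun h => ?_⟩
  · rw [← QuotientGroup.mk_inv, ← QuotientGroup.mk_inv, ← QuotientGroup.mk_mul, ← QuotientGroup.mk_mul, SX]
  · rw [← QuotientGroup.mk_mul, ← QuotientGroup.mk_mul]
    refine (eq_iff _ _).2 ⟨w, ?_⟩
    rw [cm, cm, hX, hY]
    simp
    linear_combination -w3
  · rw [← QuotientGroup.mk_inv, ← QuotientGroup.mk_inv, ← QuotientGroup.mk_mul, ← QuotientGroup.mk_mul, SY]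
  · rw [← mem_powers_iff_mem_zpowers] at h
    obtain ⟨k, hk⟩ := h
    simp only [← QuotientGroup.mk_pow, ← QuotientGroup.mk_mul] at hk
    obtain ⟨r, h⟩ := (eq_iff _ _).1 hk.symm
    have h0 : ∀ k : ℕ, (X ^ k).1 0 2 = 0 := fun k => by
      induction k with
      | zero => rw [pow_zero, c1]; simp
      | succ k ih => rw [pow_succ, cm, mul_apply, Fin.sum_univ_three, ih, hX]; simp
    have h1 := congrFun (congrFun h 0) 2
    rw [Matrix.smul_apply, h0 k, cm, hY] at h1
    simp at h1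

end Cfsg.Agent.MxN
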