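import Cfsg.Agent.MxN.B
import Cfsg.Agent.MxN.E
import Cfsg.Agent.H12.PSL2Dih
import Cfsg.Agent.H15.Sz4
import Cfsg.Agent.H11.Bend
import Cfsg.Agent.S0804

set_option autoImplicit false
open Subgroup Cfsg
open scoped MatrixGroups

namespace Cfsg.Agent.MxN

variable {X : Type*} [Group X]

theorem Hz.of_equiv {Y : Type*} [Group Y] (h : Hz X) (e : Y ≃* X) : Hz Y := by
  intro H H0 ⟨p, q, hp, hq, hr⟩
  have := h (H.map e.toMonoidHom) (fun e' => H0 ((map_eq_bot_iff_of_injective _ e.injective).1 e'))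
    ⟨p, q, hp, hq, by rwa [card_map_of_injective e.injective]⟩
  rw [← map_equiv_normalizer_eq] at this
  exact (e.mapSubgroup.isCoatom_iff _).1 this

theorem Hz.not_sz [Finite X] (h : Hz X) {Y F : Type*} [Group Y] [Field F] [CharP F 2] [Finite F]
    (M : H15.Sz.Model Y F) {f : Y →* X} (hf : Function.Injective f) (hn : f.range.Normal) : False := by
  haveI : Finite Y := Finite.of_injective f hf
  obtain ⟨b, b0, b1⟩ := M.big
  obtain ⟨a, ha⟩ := M.exists_θ b0
  have u1 : M.S 0 1 ≠ 1 := by simp [M.S_eq_one]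
  have := h.f5 hf hn (u := M.S 0 1) (g := M.D a) Nat.prime_two u1
    (fun c hc => ⟨2, M.Q_pow_four (M.cent_Q (M.S_mem 0 1) u1 hc)⟩) (fun c hc => by
      obtain ⟨x, y, rfl⟩ := M.mem_Q.1 (M.cent_Q (M.S_mem 0 1) u1 hc)
      rw [M.D_conj_S, M.S_comm_iff]; simp)
  rw [← mem_norm_zp, norm_invol (M.S_mul_self_eq_one.2 rfl), ← mul_inv_eq_iff_eq_mul, M.D_conj_S,
    M.S_inj, ha] at this
  exact b1 (by simpa using this.2)

open Equiv in
theorem Hz.not_a7 [Finite X] (h : Hz X) {f : alternatingGroup (Fin 7) →* X} (hf : Function.Injective f) :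
    False := by
  let x : alternatingGroup (Fin 7) := ⟨swap 0 1 * swap 1 2, Perm.mem_alternatingGroup.2 (by decide)⟩
  let y : alternatingGroup (Fin 7) := ⟨swap 3 4 * swap 4 5, Perm.mem_alternatingGroup.2 (by decide)⟩
  let s : alternatingGroup (Fin 7) := ⟨swap 0 1 * swap 3 4, Perm.mem_alternatingGroup.2 (by decide)⟩
  haveI : Fact (Nat.Prime 3) := ⟨Nat.prime_three⟩
  have := h.f4' hf (x := x) (s := s) (y := y) Nat.prime_three (by norm_num)
    (orderOf_eq_prime (by decide +kernel) (by decide +kernel)) (by decide +kernel) (by decide +kernel)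
    (by decide +kernel) (by decide +kernel)
  have hx : zpowers x ≤ MulAction.stabilizer _ (3 : Fin 7) :=
    zpowers_le.2 (MulAction.mem_stabilizer_iff.2 (by decide +kernel))
  exact absurd (MulAction.mem_stabilizer_iff.1 (hx this)) (by decide +kernel)

theorem card_cent {Y : Type*} [Group Y] {z s g : Y} (e : g * z * g⁻¹ = s) :
    Nat.card (centralizer ({s} : Set Y)) = Nat.card (centralizer ({z} : Set Y)) := by
  subst e
  refine Nat.card_congr ⟨fun c => ⟨g⁻¹ * c * g, ?_⟩, fun c => ⟨g * c * g⁻¹, ?_⟩, fun c => ?_, fun c => ?_⟩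
  · have := mem_centralizer_singleton_iff.1 c.2
    rw [mem_centralizer_singleton_iff]
    calc g⁻¹ * c * g * z = g⁻¹ * (c * (g * z * g⁻¹)) * g := by group
      _ = _ := by rw [this]; group
  · have := mem_centralizer_singleton_iff.1 c.2
    rw [mem_centralizer_singleton_iff]
    calc g * c * g⁻¹ * (g * z * g⁻¹) = g * (c * z) * g⁻¹ := by group
      _ = _ := by rw [this]; group
  · ext; simp [mul_assoc]
  · ext; simp [mul_assoc]

theorem idx2 {Y : Type*} [Group Y] [Finite Y] {V D : Subgroup Y} (h : V ≤ D) (h4 : Nat.card V = 4)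
    (h8 : Nat.card D = 8) : D ≤ normalizer (V : Set Y) := by
  have := (V.subgroupOf D).card_mul_index
  rw [H10.card_subgroupOf_of_le h, h4, h8] at this
  exact (normal_subgroupOf_iff_le_normalizer h).1 (normal_of_index_eq_two (by omega))

theorem sq6 {Y : Type*} [Group Y] {a : Y} (ha : orderOf a = 6) {k : ℤ} (h : a ^ k * a ^ k = 1) :
    a ^ k = 1 ∨ a ^ k = a ^ 3 := by
  rw [← zpow_add, ← orderOf_dvd_iff_zpow_eq_one, ha] at h
  have a6 : a ^ (6 : ℤ) = 1 := by rw [← orderOf_dvd_iff_zpow_eq_one, ha]; rfl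
  rw [zpow_eq_zpow_emod k a6]
  have : k % 6 = 0 ∨ k % 6 = 3 := by omega
  rcases this with e | e <;> rw [e]
  · exact .inl (zpow_zero a)
  · exact .inr (zpow_ofNat a 3)

section psl
variable {F : Type} [Field F] [Fintype F]

theorem Hz.not5 [Finite X] (h : Hz X) (h2 : (2 : F) ≠ 0) (hF : Fintype.card F = 5) {f : PSL(2, F) →* X}
    (hf : Function.Injective f) (hn : f.range.Normal) : False := by
  haveI : Finite PSL(2, F) := Finite.of_injective f hf
  obtain ⟨z, oz⟩ := H12.exists_invol_psl2 (F := F)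
  obtain ⟨a, s, hD, oa, e⟩ := H12.centralizer_invol h2 oz (n := 1) (by omega)
  rw [pow_one] at e; subst e
  haveI : Fact (Nat.Prime 2) := ⟨Nat.prime_two⟩
  have s1 : s ≠ 1 := by rintro rfl; exact hD.2.2.2 (one_mem _)
  obtain ⟨g, hg⟩ := isConj_iff.1 (H12.psl2_isConj_invol h2 oz (orderOf_eq_prime (by rw [sq, hD.2.1]) s1))
  have hle : centralizer {z} ≤ centralizer {s} := by
    refine hD.1.le.trans ((closure_le _).2 ?_)
    rintro _ (rfl | rfl)
    · exact mem_centralizer_singleton_iff.2 (mem_centralizer_singleton_iff.1 hD.right_mem).symm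
    · exact mem_centralizer_singleton_iff.2 rfl
  have e := eq_of_le_of_card_ge hle (card_cent hg).le
  refine hD.2.2.2 (hg ▸ h.f5 hf hn Nat.prime_two (by rintro rfl; simp at oz) (fun c hc => ⟨2, ?_⟩)
    fun c hc => ?_)
  · have := pow_card_eq_one' (x := (⟨c, mem_centralizer_singleton_iff.2 hc⟩ : centralizer ({z} : Set _)))
    rw [hD.card, oz] at this
    exact congrArg Subtype.val this
  · rw [← mem_centralizer_singleton_iff, e, mem_centralizer_singleton_iff, ← hg]
    calc g * c * g⁻¹ * (g * z * g⁻¹) = g * (c * z) * g⁻¹ := by group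
      _ = _ := by rw [hc]; group

theorem Hz.not7 [Finite X] (h : Hz X) (h2 : (2 : F) ≠ 0) (hF : Fintype.card F = 7) [IsSimpleGroup PSL(2, F)]
    {f : PSL(2, F) →* X} (hf : Function.Injective f) (hn : f.range.Normal) : False := by
  haveI : Finite PSL(2, F) := Finite.of_injective f hf
  obtain ⟨z, oz⟩ := H12.exists_invol_psl2 (F := F)
  obtain ⟨a, s, hD, oa, e⟩ := H12.centralizer_invol h2 oz (n := 2) (by omega)
  haveI : Fact (Nat.Prime 2) := ⟨Nat.prime_two⟩
  have cY : Nat.card PSL(2, F) = 168 := by have := H12.card_PSL2 hF; norm_num at this; omega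
  have s1 : s ≠ 1 := by rintro rfl; exact hD.2.2.2 (one_mem _)
  have hz : z * z = 1 := by rw [← sq, ← orderOf_dvd_iff_pow_eq_one, oz]
  obtain ⟨g, hg⟩ := isConj_iff.1 (H12.psl2_isConj_invol h2 oz (orderOf_eq_prime (by rw [sq, hD.2.1]) s1))
  have c8 : Nat.card (centralizer ({z} : Set PSL(2, F))) = 8 := by rw [hD.card, oa]
  have sz := mem_centralizer_singleton_iff.1 hD.right_mem
  have hV : H12.IsDihedralPair (closure {z, s}) z s := ⟨rfl, hD.2.1,
    by rw [sz, mul_inv_cancel_right, inv_eq_of_mul_eq_one_right hz],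
    fun hs => hD.2.2.2 ((zpowers_le.2 (e ▸ pow_mem (mem_zpowers a) 2)) hs)⟩
  have c4 : Nat.card (closure {z, s} : Subgroup PSL(2, F)) = 4 := by rw [hV.card, oz]
  have le1 : closure {z, s} ≤ centralizer {z} := (closure_le _).2 (by
    rintro _ (rfl | rfl)
    exacts [mem_centralizer_singleton_iff.2 rfl, hD.right_mem])
  have le2 : closure {z, s} ≤ centralizer {s} := (closure_le _).2 (by
    rintro _ (rfl | rfl)
    exacts [mem_centralizer_singleton_iff.2 sz.symm, mem_centralizer_singleton_iff.2 rfl])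
  have pC : IsPGroup 2 (centralizer ({z} : Set PSL(2, F))) := IsPGroup.of_card (n := 3) c8
  have hi := (centralizer ({z} : Set PSL(2, F))).card_mul_index
  rw [c8, cY] at hi
  have sn : normalizer (centralizer ({z} : Set PSL(2, F)) : Set PSL(2, F)) ≤ centralizer {z} := fun c hc => by
    rw [mem_centralizer_singleton_iff, ← norm_invol hz, mem_norm_zp]
    refine h.f5 hf hn Nat.prime_two (by rintro rfl; simp at oz) (fun c hc => ?_) fun d hd => ?_
    · obtain ⟨k, hk⟩ := pC ⟨c, mem_centralizer_singleton_iff.2 hc⟩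
      exact ⟨k, congrArg Subtype.val hk⟩
    · exact mem_centralizer_singleton_iff.1
        ((mem_normalizer_iff.1 hc d).1 (mem_centralizer_singleton_iff.2 hd))
  have := h.f7 hf hn Nat.prime_two (pC.toSylow (by omega)) (V := closure {z, s})
    (fun e => by rw [e, card_bot] at c4; omega) le1 (sn.trans (idx2 le1 c4 c8)) (fun e => by
      rcases (normalizer_eq_top_iff.1 e).eq_bot_or_eq_top with e | e <;> rw [e] at c4
      · rw [card_bot] at c4; omega
      · rw [card_top] at c4; omega)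
  have e2 := eq_of_le_of_card_ge (((idx2 le2 c4 ((card_cent hg).trans c8)).trans this).trans sn)
    (card_cent hg).ge
  have as := mem_centralizer_singleton_iff.1 (e2 ▸ hD.left_mem)
  have h3 := hD.2.2.1
  rw [← as, mul_inv_cancel_right, eq_inv_iff_mul_eq_one, ← sq, ← orderOf_dvd_iff_pow_eq_one, oa] at h3
  omega

theorem d12 (h2 : (2 : F) ≠ 0) (hF : Fintype.card F = 11 ∨ Fintype.card F = 13) {z s : PSL(2, F)}
    (hz : z * z = 1) (z1 : z ≠ 1) (hs : s * s = 1) (s1 : s ≠ 1) (zne : s ≠ z) (zs : z * s = s * z) :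
    ∃ a, orderOf a = 6 ∧ z = a ^ 3 ∧ s * a * s⁻¹ = a⁻¹ ∧
      ∀ g, g * z = z * g → ∃ j : ℤ, g = a ^ j ∨ g = s * a ^ j := by
  haveI : Fact (Nat.Prime 2) := ⟨Nat.prime_two⟩
  obtain ⟨a, t, hD, oa, e⟩ := H12.centralizer_invol h2 (orderOf_eq_prime (by rw [sq, hz]) z1) (n := 3)
    (by omega)
  obtain ⟨k, hk | hk⟩ := hD.mem_iff.1 (mem_centralizer_singleton_iff.2 zs.symm)
  · rcases sq6 oa (k := k) (hk ▸ hs) with h | h
    · exact absurd (hk.trans h) s1
    · exact absurd (hk.trans (h.trans e.symm)) zne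
  refine ⟨a, oa, e, ?_, fun g hg => ?_⟩
  · rw [hk, ← hD.2.2.1]; group
  · obtain ⟨j, hj | hj⟩ := hD.mem_iff.1 (mem_centralizer_singleton_iff.2 hg)
    · exact ⟨j, .inl hj⟩
    · exact ⟨j - k, .inr (by rw [hj, hk]; group)⟩

theorem Hz.surj [Finite X] (h : Hz X) (h2 : (2 : F) ≠ 0) (hF : Fintype.card F = 11 ∨ Fintype.card F = 13)
    {f : PSL(2, F) →* X} (hf : Function.Injective f) (hn : f.range.Normal) : Function.Surjective f := by
  obtain ⟨H, ⟨e⟩⟩ := H12.exists_alt4 h2
  obtain ⟨z, s, y, hz, z1, hs, s1, zne, zs, yz, ys, y3⟩ : ∃ z s y : alternatingGroup (Fin 4), z * z = 1 ∧ z ≠ 1 ∧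
      s * s = 1 ∧ s ≠ 1 ∧ s ≠ z ∧ z * s = s * z ∧ y * z * y⁻¹ = s ∧ y * s * y⁻¹ = z * s ∧ y ^ 3 = 1 :=
    ⟨H12.alt4a, H12.alt4b * H12.alt4a * H12.alt4b⁻¹, H12.alt4b, by decide +kernel⟩
  let φ := H.subtype.comp e.symm.toMonoidHom
  have hφ : Function.Injective φ := H.subtype_injective.comp e.symm.injective
  obtain ⟨a, oa, ea, sa, -⟩ := d12 h2 hF (z := φ z) (s := φ s) (by rw [← map_mul, hz, map_one])
    (by rwa [Ne, map_eq_one_iff φ hφ]) (by rw [← map_mul, hs, map_one]) (by rwa [Ne, map_eq_one_iff φ hφ])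
    (hφ.ne zne) (by rw [← map_mul, zs, map_mul])
  rw [← MonoidHom.range_eq_top]
  refine h.xeq (z := f (φ z)) (s := f (φ s)) (x := f (a ^ 2)) (y := f (φ y)) ⟨_, rfl⟩ ⟨_, rfl⟩
    (by rw [← map_mul, ← map_mul, hz, map_one, map_one])
    (by rwa [Ne, map_eq_one_iff f hf, map_eq_one_iff φ hφ]) (by simp only [← map_mul, zs])
    (by simp only [← map_mul, ← map_inv, yz]) (by simp only [← map_mul, ← map_inv, ys])
    (by rw [← map_pow, ← map_pow, y3, map_one, map_one])
    (by rw [← map_pow, ← pow_mul, map_eq_one_iff f hf, ← orderOf_dvd_iff_pow_eq_one, oa])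
    (by rw [Ne, map_eq_one_iff f hf, ← orderOf_dvd_iff_pow_eq_one, oa]; norm_num)
    (by rw [← map_mul, ← map_mul, ea, ← pow_add, ← pow_add])
    (by rw [← map_inv f, ← map_inv f, ← map_mul, ← map_mul, ← conj_pow, sa, inv_pow]) ?_
  rw [← Nat.card_congr (MonoidHom.ofInjective hf).toEquiv]
  rcases hF with hF | hF <;> have := H12.card_PSL2 hF <;> norm_num at this <;> omega

open Equiv in
theorem Hz.not11 (h : Hz PSL(2, F)) (h2 : (2 : F) ≠ 0) (hF : Fintype.card F = 11) : False := by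
  obtain ⟨H, ⟨e⟩⟩ := (S0804.result hF).2 (by norm_num)
  obtain ⟨z0, s0, y0, w, hz, z1, hs, s1, zne, zs, yz, ys, w1, w2, w3, w4⟩ : ∃ z s y w : alternatingGroup (Fin 5),
      z * z = 1 ∧ z ≠ 1 ∧ s * s = 1 ∧ s ≠ 1 ∧ s ≠ z ∧ z * s = s * z ∧ y * z * y⁻¹ = s ∧ y * s * y⁻¹ = z * s ∧
      w * z * w⁻¹ ≠ 1 ∧ w * z * w⁻¹ ≠ z ∧ w * z * w⁻¹ ≠ s ∧ w * z * w⁻¹ ≠ z * s :=
    ⟨⟨swap 0 1 * swap 2 3, Perm.mem_alternatingGroup.2 (by decide)⟩,
      ⟨swap 1 2 * swap 0 3, Perm.mem_alternatingGroup.2 (by decide)⟩,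
      ⟨swap 0 1 * swap 1 2, Perm.mem_alternatingGroup.2 (by decide)⟩,
      ⟨swap 2 3 * swap 3 4, Perm.mem_alternatingGroup.2 (by decide)⟩, by decide +kernel⟩
  let φ := H.subtype.comp e.symm.toMonoidHom
  have hφ : Function.Injective φ := H.subtype_injective.comp e.symm.injective
  have mH : ∀ g, φ g ∈ H := fun g => (e.symm g).2
  have cY : Nat.card PSL(2, F) = 660 := by have := H12.card_PSL2 hF; norm_num at this; omega
  haveI : Finite PSL(2, F) := Nat.finite_of_card_ne_zero (by omega)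
  replace hz : φ z0 * φ z0 = 1 := by rw [← map_mul, hz, map_one]
  replace hs : φ s0 * φ s0 = 1 := by rw [← map_mul, hs, map_one]
  replace z1 : φ z0 ≠ 1 := by rwa [Ne, map_eq_one_iff φ hφ]
  replace zs : φ z0 * φ s0 = φ s0 * φ z0 := by rw [← map_mul, zs, map_mul]
  replace yz : φ y0 * φ z0 * (φ y0)⁻¹ = φ s0 := by simp only [← map_mul, ← map_inv, yz]
  replace ys : φ y0 * φ s0 * (φ y0)⁻¹ = φ z0 * φ s0 := by simp only [← map_mul, ← map_inv, ys]
  obtain ⟨a, oa, ea, sa, hC⟩ := d12 h2 (.inl hF) hz z1 hs (by rwa [Ne, map_eq_one_iff φ hφ]) (hφ.ne zne) zs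
  have zH := mH z0
  have sH := mH s0
  have yH := mH y0
  have hw : ∀ g, g = 1 ∨ g = φ z0 ∨ g = φ s0 ∨ g = φ z0 * φ s0 → φ w * φ z0 * (φ w)⁻¹ ≠ g := by
    rintro _ (rfl | rfl | rfl | rfl) <;> simp only [← map_mul, ← map_inv]
    exacts [by rwa [Ne, map_eq_one_iff φ hφ], hφ.ne w2, hφ.ne w3, hφ.ne w4]
  generalize φ z0 = z at *
  generalize φ s0 = s at *
  generalize φ y0 = y at *
  have zi : z⁻¹ = z := inv_eq_of_mul_eq_one_right hz
  have yzs : y * (z * s) * y⁻¹ = z := by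
    rw [show y * (z * s) * y⁻¹ = (y * z * y⁻¹) * (y * s * y⁻¹) by group, yz, ys, zs, ← mul_assoc, hs, one_mul]
  have zV : z ∈ closure {z, s} := subset_closure (by simp)
  have sV : s ∈ closure {z, s} := subset_closure (by simp)
  have mz : ∀ u ∈ zpowers z, u = 1 ∨ u = z := by
    rintro _ ⟨k, rfl⟩
    have t2 : z ^ (2 : ℤ) = 1 := by rw [zpow_two, hz]
    simp only; rw [zpow_eq_zpow_emod k t2]
    rcases Int.emod_two_eq_zero_or_one k with e | e <;> simp [e]
  have mV : ∀ g ∈ closure {z, s}, g = 1 ∨ g = z ∨ g = s ∨ g = z * s := fun g hg => by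
    rcases mem_dih hs (by rw [← zs, zi, mul_inv_cancel_right]) hg with h1 | h1 <;>
      rcases mz _ h1 with h2 | h2
    · exact .inl h2
    · exact .inr (.inl h2)
    · exact .inr (.inr (.inl (by rw [← mul_one g, ← hs, ← mul_assoc, h2, one_mul])))
    · exact .inr (.inr (.inr (by rw [← mul_one g, ← hs, ← mul_assoc, h2])))
  have sq1 : ∀ g ∈ closure {z, s}, g * g = 1 := fun g hg => by
    rcases mV g hg with rfl | rfl | rfl | rfl
    exacts [one_mul 1, hz, hs, by rw [show z * s * (z * s) = z * (s * z) * s by group, ← zs,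
          show z * (z * s) * s = (z * z) * (s * s) by group, hz, hs, one_mul]]
  have cN := h (closure {z, s}) (fun e => z1 (mem_bot.1 (e ▸ zV)))
    (pq_of_pow Nat.prime_two Nat.prime_two fun g hg => ⟨1, 0, by simpa [sq] using sq1 g hg⟩)
  have yN : y ∈ normalizer ((closure {z, s} : Subgroup PSL(2, F)) : Set PSL(2, F)) :=
    mem_normalizer_fintype fun n hn => by
      rcases mV n hn with rfl | rfl | rfl | rfl
      exacts [by simp, yz ▸ sV, ys ▸ mul_mem zV sV, by rw [yzs]; exact zV]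
  have core : ∀ g ∈ normalizer ((closure {z, s} : Subgroup PSL(2, F)) : Set PSL(2, F)),
      g * z * g⁻¹ = z → g ∈ H := fun g hg e => by
    have key : ∀ j : ℤ, a ^ j ∈ normalizer ((closure {z, s} : Subgroup PSL(2, F)) : Set PSL(2, F)) →
        a ^ j ∈ H := fun j hj => by
      have h1 := mul_mem ((mem_normalizer_iff.1 hj s).1 sV) (inv_mem sV)
      rw [show a ^ j * s * (a ^ j)⁻¹ * s⁻¹ = a ^ j * ((s * a * s⁻¹) ^ j)⁻¹ by rw [conj_zpow]; group, sa,
        inv_zpow, inv_inv] at h1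
      have h3 := sq1 _ h1
      have h4 : a ^ j * a ^ j = 1 := by
        rw [← zpow_add, ← zpow_add, ← orderOf_dvd_iff_zpow_eq_one, oa] at h3
        rw [← zpow_add, ← orderOf_dvd_iff_zpow_eq_one, oa]; omega
      rcases sq6 oa h4 with h5 | h5 <;> rw [h5]
      exacts [one_mem _, ea ▸ zH]
    obtain ⟨j, rfl | rfl⟩ := hC g (mul_inv_eq_iff_eq_mul.1 e)
    · exact key j hg
    · exact mul_mem sH (key j (by simpa using mul_mem (inv_mem (le_normalizer sV)) hg))
  have NH : normalizer ((closure {z, s} : Subgroup PSL(2, F)) : Set PSL(2, F)) ≤ H := fun g hg => by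
    rcases mV _ ((mem_normalizer_iff.1 hg z).1 zV) with h1 | h1 | h1 | h1
    · exact absurd (conj_eq_one_iff.1 h1) z1
    · exact core g hg h1
    · have := mul_mem yH (core (y⁻¹ * g) (mul_mem (inv_mem yN) hg) (by
        rw [show y⁻¹ * g * z * (y⁻¹ * g)⁻¹ = y⁻¹ * (g * z * g⁻¹) * y by group, h1, ← yz]; group))
      simpa using this
    · have := mul_mem (inv_mem yH) (core (y * g) (mul_mem yN hg) (by
        rw [show y * g * z * (y * g)⁻¹ = y * (g * z * g⁻¹) * y⁻¹ by group, h1, yzs]))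
      simpa using this
  rcases cN.le_iff.1 NH with e' | e'
  · have := Nat.card_congr e.toEquiv
    rw [e', card_top, cY, H12.card_alt5] at this; omega
  · exact hw _ (mV _ ((mem_normalizer_iff.1 (e' ▸ mH w) z).1 zV)) rfl

theorem Hz.psl2 [Finite X] (h : Hz X) (h3 : 3 < Fintype.card F) [IsSimpleGroup PSL(2, F)]
    {f : PSL(2, F) →* X} (hf : Function.Injective f) (hn : f.range.Normal) :
    Fintype.card F = 13 ∧ Function.Surjective f := by
  have hp : (Fintype.card F).Prime := by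
    by_contra hp
    obtain ⟨u, g, p, hp, u1, h1, h2, h3⟩ := e2 hp
    exact h3 (h.f5 hf hn hp u1 (fun c hc => ⟨1, by rw [pow_one, h1 c hc]⟩) h2)
  have ho : Fintype.card F % 2 = 1 := Nat.odd_iff.1 (hp.odd_of_ne_two (by omega))
  have h2 : (2 : F) ≠ 0 := fun e => by
    have := FiniteField.cast_card_eq_zero F
    rw [← Nat.div_add_mod (Fintype.card F) 2, ho] at this
    simp [e] at this
  have n3 : Fintype.card F % 3 ≠ 0 := fun e => by
    have := (Nat.prime_dvd_prime_iff_eq Nat.prime_three hp).1 (Nat.dvd_of_mod_eq_zero e); omega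
  obtain ⟨m, hm⟩ : ∃ m, 6 * m = Fintype.card F - 1 ∨ 6 * m = Fintype.card F + 1 := by
    by_cases e : Fintype.card F % 3 = 1
    · exact ⟨(Fintype.card F - 1) / 6, .inl (by omega)⟩
    · exact ⟨(Fintype.card F + 1) / 6, .inr (by omega)⟩
  obtain ⟨H, a, s, hD, oa⟩ := H12.exists_dihedralPair hm (by omega)
  rw [show Nat.gcd 2 (Fintype.card F - 1) = 2 from Nat.gcd_eq_left (by omega),
    show 6 * m / 2 = 3 * m by omega] at oa
  have m0 : m ≠ 0 := by omega
  obtain ⟨k, hk⟩ := h.f4' hf (x := a ^ m) (s := s) (y := a) Nat.prime_three (by norm_num)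
    (by rw [orderOf_pow_of_dvd m0 (by rw [oa]; simp), oa, Nat.mul_div_cancel _ (by omega)]) hD.2.1
    (by rw [← conj_pow, hD.2.2.1, inv_pow]) ((Commute.refl a).pow_right m) hD.2.2.1
  have : 3 * m ∣ 6 := by
    rw [← oa, orderOf_dvd_iff_pow_eq_one, show 6 = 2 * 3 by rfl, pow_mul, sq, ← hk, ← zpow_natCast,
      ← zpow_mul, mul_comm, zpow_mul, zpow_natCast, ← pow_mul, mul_comm, ← oa, pow_orderOf_eq_one, one_zpow]
  have := Nat.le_of_dvd (by norm_num) this
  have : Fintype.card F = 5 ∨ Fintype.card F = 7 ∨ Fintype.card F = 11 ∨ Fintype.card F = 13 := by omega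
  rcases this with e | e | e | e
  · exact (h.not5 h2 e hf hn).elim
  · exact (h.not7 h2 e hf hn).elim
  · exact ((h.of_equiv (MulEquiv.ofBijective f ⟨hf, h.surj h2 (.inl e) hf hn⟩)).not11 h2 e).elim
  · exact ⟨e, h.surj h2 (.inr e) hf hn⟩

end psl

end Cfsg.Agent.MxN
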