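import Cfsg.Agent.MxN.R0

/-! The solvable radical in a group over `PSL(2,13)` with controlled normalizers. -/

set_option autoImplicit false
set_option linter.style.haveILetI false
set_option linter.unusedSectionVars false

namespace Cfsg.Agent.MxN
open Subgroup
open scoped commutatorElement MatrixGroups

section gen
variable {G P L : Type*} [Group G] [Finite G] [Group P] [Group L] {f : G →* P} {θ : L →* G}

theorem Hyp.normal_cyc (h : Hyp f) (hc : ∀ s a, f a = 1 → Commute a (θ s)) {x : L}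
    (hx : f (θ x) ≠ 1) (x7 : x ^ 7 = 1) {a r : G} (ha : f a = 1) (hr : f r = 1) {p k : ℕ}
    (hp : p.Prime) (h7 : p ≠ 7) (hk : a ^ p ^ k = 1) : r * a * r⁻¹ ∈ zpowers a := by
  have c := (hc x a ha).symm
  have e7 : ∀ n : ℕ, θ x ^ (7 * n) = 1 := fun n => by rw [pow_mul, ← map_pow, x7]; simp
  obtain ⟨i, hi⟩ := h.cyc (u := θ x * a) (by simpa [ha] using hx) (p := 7) (q := p) (m := 1)
    (n := k) (by norm_num) hp (by
      rw [c.mul_pow, pow_one, e7, one_mul, mul_comm, pow_mul, hk, one_pow]) (g := r) (by simp [hr])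
  have h1 : r * a ^ 7 * r⁻¹ = a ^ (7 * i) := by
    have := congrArg (· ^ 7) hi
    simp only [conj_pow] at this
    rw [c.mul_pow, ← pow_mul, c.mul_pow, mul_comm i 7, e7, ← map_pow, x7] at this
    simpa using this
  have h2 : (7 : ℕ).Coprime (orderOf a) := Nat.Coprime.coprime_dvd_right
    (orderOf_dvd_of_pow_eq_one hk) (((Nat.coprime_primes (by norm_num) hp).2 h7.symm).pow_right k)
  obtain ⟨j, hj⟩ := exists_pow_eq_self_of_coprime h2
  rw [← hj, ← conj_pow, h1, hj]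
  exact pow_mem (pow_mem (mem_zpowers a) _) _

theorem Hyp.no_odd (h : Hyp f) (hc : ∀ s a, f a = 1 → Commute a (θ s)) {x w : L} {r : ℕ}
    (hr : r.Prime) (h2 : r ≠ 2) (hx : f (θ x) ≠ 1) (xr : x ^ r = 1) (hw : x * w * x = w) {a : G}
    (ha : f a = 1) (ar : a ^ r = 1) : a = 1 := by
  have c := (hc x a ha).symm
  have e1 : θ w * θ x * (θ w)⁻¹ = (θ x)⁻¹ := by
    have := congrArg θ hw
    simp only [map_mul] at this
    calc θ w * θ x * (θ w)⁻¹ = (θ x)⁻¹ * (θ x * θ w * θ x) * (θ w)⁻¹ := by group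
      _ = _ := by rw [this]; group
  have e2 : θ w * (θ x * a) * (θ w)⁻¹ = (θ x)⁻¹ * a := by
    rw [← e1, ← mul_assoc, mul_assoc _ a, ((hc w a ha).inv_right).eq, ← mul_assoc]
  have gr : θ x ^ r = 1 := by rw [← map_pow, xr, map_one]
  obtain ⟨i, hi⟩ := h.cyc (u := θ x * a) (by simpa [ha] using hx) (p := r) (q := r) (m := 1)
    (n := 0) hr hr (by simp [c.mul_pow, gr, ar]) (g := θ w) (by rw [e2]; simp [ha])
  rw [e2, c.mul_pow] at hi
  have h3 : f (θ x) ^ (i + 1) = 1 := by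
    have := congrArg f hi
    simp only [map_mul, map_inv, map_pow, ha, one_pow, mul_one] at this
    rw [pow_succ, ← this, inv_mul_cancel]
  haveI := Fact.mk hr
  have h4 : r ∣ i + 1 := by
    rw [← orderOf_eq_prime (p := r) (by rw [← map_pow, gr, map_one]) hx]
    exact orderOf_dvd_of_pow_eq_one h3
  obtain ⟨j, hj⟩ := h4
  have h5 : θ x ^ i = (θ x)⁻¹ := by
    rw [eq_inv_iff_mul_eq_one, ← pow_succ, hj, pow_mul, gr, one_pow]
  rw [h5, mul_right_inj] at hi
  have h6 : a ^ 2 = 1 := by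
    rw [pow_two]
    nth_rewrite 1 [hi]
    rw [← pow_succ, hj, pow_mul, ar, one_pow]
  have := Nat.dvd_gcd (orderOf_dvd_of_pow_eq_one ar) (orderOf_dvd_of_pow_eq_one h6)
  rw [(Nat.coprime_primes hr Nat.prime_two).2 h2] at this
  exact orderOf_eq_one_iff.1 (Nat.dvd_one.1 this)

theorem pgz {g : G} {k : ℕ} (hk : g ^ 2 ^ k = 1) : IsPGroup 2 (zpowers g) := by
  rintro ⟨_, n, rfl⟩
  exact ⟨k, Subtype.ext (by
    show (g ^ n) ^ 2 ^ k = 1
    rw [← zpow_natCast, ← zpow_mul, mul_comm, zpow_mul, zpow_natCast, hk, one_zpow])⟩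

theorem Hyp.two (h : Hyp f) (hc : ∀ s a, f a = 1 → Commute a (θ s)) [θ.range.Normal] {i j y : L}
    (i4 : i ^ 4 = 1) (j4 : j ^ 4 = 1) (ij : j * i * j = i) (i2 : f (θ i) * f (θ i) = 1)
    (j2 : f (θ j) * f (θ j) = 1) (n1 : f (θ i) ≠ 1) (n2 : f (θ j) ≠ 1) (n3 : f (θ i) ≠ f (θ j))
    (y1 : y * j = i * y) (y2 : y * i = i * j * y) {a : G} (ha : f a = 1) {k : ℕ}
    (hk : a ^ 2 ^ k = 1) : a ∈ θ.range := by
  have c := (hc i a ha).symm
  have e1 : θ i * θ j * (θ i)⁻¹ = (θ j)⁻¹ := by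
    have := congrArg θ ij
    simp only [map_mul] at this
    calc θ i * θ j * (θ i)⁻¹ = (θ j)⁻¹ * (θ j * θ i * θ j) * (θ i)⁻¹ := by group
      _ = _ := by rw [this]; group
  have e2 : θ i * a * θ j * (θ i * a)⁻¹ = (θ j)⁻¹ := by
    rw [← e1, mul_assoc (θ i), (hc j a ha).eq]; group
  let H : Subgroup G := zpowers (θ i * a) ⊔ zpowers (θ j)
  have pH : IsPGroup 2 H := by
    refine (pgz (k := k + 2) ?_).to_sup_of_normal_right' (pgz (k := 2) ?_) (zpowers_le.2 ?_)
    · rw [c.mul_pow, pow_add, pow_mul a, hk, one_pow, mul_comm (2 ^ k), pow_mul, ← map_pow,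
        show 2 ^ 2 = 4 from rfl, i4]
      simp
    · rw [← map_pow, show 2 ^ 2 = 4 from rfl, j4, map_one]
    · refine mem_normalizer_fintype ?_
      rintro _ ⟨n, rfl⟩
      show _ ∈ zpowers (θ j)
      rw [← conj_zpow, e2]
      exact zpow_mem (inv_mem (mem_zpowers _)) n
  have m1 : f (θ i) ∈ H.map f := ⟨_, mem_sup_left (mem_zpowers _), by simp [ha]⟩
  have m2 : f (θ j) ∈ H.map f := ⟨_, mem_sup_right (mem_zpowers _), rfl⟩
  have f1 : θ y * θ j * (θ y)⁻¹ = θ i := by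
    rw [mul_inv_eq_iff_eq_mul, ← map_mul, y1, map_mul]
  have f2 : θ y * θ i * (θ y)⁻¹ = θ i * θ j := by
    rw [mul_inv_eq_iff_eq_mul, ← map_mul, y2, map_mul, map_mul]
  have h1 : θ i ∈ H := by
    rw [← f1]
    haveI := Fact.mk Nat.prime_two
    refine h.nrm (fun hl => n2 (hl (mem_sup_right (mem_zpowers _)))) ⟨2, 2, Nat.prime_two,
      Nat.prime_two, fun r hr hd => Or.inl ?_⟩ ?_ _ (mem_sup_right (mem_zpowers _))
    · obtain ⟨n, hn⟩ := pH.exists_card_eq
      exact (Nat.prime_dvd_prime_iff_eq hr Nat.prime_two).1 (hr.dvd_of_dvd_pow (hn ▸ hd))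
    · have : H ≤ ((H.map f).comap f).comap (MulAut.conj (θ y)).toMonoidHom := by
        refine sup_le (zpowers_le.2 ?_) (zpowers_le.2 ?_)
        · show f (θ y * (θ i * a) * (θ y)⁻¹) ∈ H.map f
          have := congrArg f f2
          simp only [map_mul, map_inv, ha, mul_one] at this ⊢
          exact this ▸ mul_mem m1 m2
        · show f (θ y * θ j * (θ y)⁻¹) ∈ H.map f
          exact f1 ▸ m1
      exact fun x hx => this hx
  let π := QuotientGroup.mk' θ.range
  have hπ : ∀ s, π (θ s) = 1 := fun s => (QuotientGroup.eq_one_iff _).2 ⟨s, rfl⟩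
  have cm : Commute (f (θ i)) (f (θ j)) := by
    have := congrArg f e1
    simp only [map_mul, map_inv] at this
    rw [inv_eq_of_mul_eq_one_right j2, mul_inv_eq_iff_eq_mul] at this
    exact this
  let T : Subgroup G :=
    { carrier := {g | ∃ m n : ℤ, f g = f (θ i) ^ m * f (θ j) ^ n ∧ π g = π a ^ m}
      one_mem' := ⟨0, 0, by simp, by simp⟩
      mul_mem' := by
        rintro g g' ⟨m, n, a1, a2⟩ ⟨m', n', b1, b2⟩
        refine ⟨m + m', n + n', ?_, by rw [map_mul, a2, b2, zpow_add]⟩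
        rw [map_mul, a1, b1, zpow_add, zpow_add, mul_assoc, mul_assoc, ← mul_assoc (f (θ j) ^ n),
          ← (cm.zpow_zpow m' n).eq, mul_assoc]
      inv_mem' := by
        rintro g ⟨m, n, a1, a2⟩
        refine ⟨-m, -n, ?_, by rw [map_inv, a2, zpow_neg]⟩
        rw [map_inv, a1, mul_inv_rev, ← zpow_neg, ← zpow_neg, (cm.zpow_zpow (-m) (-n)).eq] }
  have h2 : H ≤ T := sup_le (zpowers_le.2 ⟨1, 0, by simp [ha], by simp [hπ]⟩)
    (zpowers_le.2 ⟨0, 1, by simp, by simp [hπ]⟩)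
  obtain ⟨m, n, a1, a2⟩ := h2 h1
  have ev : ∀ {u : P} (t : ℤ), u * u = 1 → u ^ (2 * t) = 1 := fun t hu => by
    rw [zpow_mul, zpow_two, hu, one_zpow]
  obtain ⟨t, rfl | rfl⟩ := Int.even_or_odd' m
  · rw [ev t i2, one_mul] at a1
    obtain ⟨t', rfl | rfl⟩ := Int.even_or_odd' n
    · exact absurd (a1.trans (ev t' j2)) n1
    · rw [zpow_add, ev t' j2, zpow_one, one_mul] at a1
      exact absurd a1 n3
  · rw [hπ] at a2
    refine (QuotientGroup.eq_one_iff _).1 (orderOf_eq_one_iff.1 ?_ : π a = 1)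
    have b1 : orderOf (π a) ∣ 2 ^ k := orderOf_dvd_of_pow_eq_one (by rw [← map_pow, hk, map_one])
    have b2 : (orderOf (π a) : ℤ) ∣ 2 * t + 1 := orderOf_dvd_iff_zpow_eq_one.2 a2.symm
    obtain ⟨l, -, hl⟩ := (Nat.dvd_prime_pow Nat.prime_two).1 b1
    rcases l with _ | l
    · simpa using hl
    · rw [hl, pow_succ] at b2
      have : (2 : ℤ) ∣ 2 * t + 1 := (Dvd.intro_left _ (by push_cast; rfl)).trans b2
      omega

end gen

instance : Fact (Nat.Prime 13) := ⟨by norm_num⟩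

/-- a matrix of determinant one over the field with 13 elements -/
def sl (a b c d : ZMod 13) (h : a * d - b * c = 1 := by decide) : SL(2, ZMod 13) :=
  ⟨!![a, b; c, d], by rw [Matrix.det_fin_two_of, h]⟩

theorem mk_ne_one {s : SL(2, ZMod 13)} (h : s * sl 1 1 0 1 ≠ sl 1 1 0 1 * s) :
    QuotientGroup.mk' (center SL(2, ZMod 13)) s ≠ 1 := fun e =>
  h (mem_center_iff.1 ((QuotientGroup.eq_one_iff _).1 e) _).symm

theorem cen_cases {s : SL(2, ZMod 13)} (h : s ∈ center SL(2, ZMod 13)) :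
    s = 1 ∨ s = sl 12 0 0 12 := by
  obtain ⟨r, h1, h2⟩ := Matrix.SpecialLinearGroup.mem_center_iff.1 h
  have h3 : ∀ r : ZMod 13, r ^ 2 = 1 → r = 1 ∨ r = 12 := by decide
  rcases h3 r (by simpa using h1) with rfl | rfl
  · exact Or.inl (Subtype.ext (by rw [← h2]; simp))
  · refine Or.inr (Subtype.ext ?_)
    rw [← h2]
    ext i j
    fin_cases i <;> fin_cases j <;> simp [sl]

theorem neg_cen : sl 12 0 0 12 ∈ center SL(2, ZMod 13) :=
  Matrix.SpecialLinearGroup.mem_center_iff.2 ⟨12, by decide, by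
    ext i j
    fin_cases i <;> fin_cases j <;> simp [sl]⟩

theorem rad {G : Type*} [Group G] [Finite G]
    (f : G →* Matrix.ProjectiveSpecialLinearGroup (Fin 2) (ZMod 13)) (hf : Function.Surjective f)
    (_hR : Group.IsSolvable f.ker)
    (h : ∀ H : Subgroup G, ¬ H ≤ f.ker →
      (∃ p q : ℕ, p.Prime ∧ q.Prime ∧ ∀ r : ℕ, r.Prime → r ∣ Nat.card H → r = p ∨ r = q) →
      Subgroup.normalizer (H : Set G) = Subgroup.normalizer ((H ⊔ f.ker : Subgroup G) : Set G)) :
    ∃ K S : Subgroup G, K.Normal ∧ S.Normal ∧ K ⊓ S = ⊥ ∧ K ⊔ S = ⊤ ∧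
      (Nonempty (K ≃* Matrix.ProjectiveSpecialLinearGroup (Fin 2) (ZMod 13)) ∨
        Nonempty (K ≃* Matrix.SpecialLinearGroup (Fin 2) (ZMod 13))) ∧
      IsMulCommutative S ∧ (Nat.card K).Coprime (Nat.card S) := by
  change Hyp f at h
  haveI : IsSimpleGroup PSL(2, ZMod 13) := H12.PSL_fin_simple (F := ZMod 13) 2 le_rfl
    (fun _ => by simp)
  have pf := H12.commutator_SL_fin_eq_top (F := ZMod 13) 2 le_rfl fun _ => by simp
  let μ := QuotientGroup.mk' (center SL(2, ZMod 13))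
  have hμ : Function.Surjective μ := QuotientGroup.mk'_surjective _
  have cP : Nat.card PSL(2, ZMod 13) = 1092 := by
    have := H12.card_PSL2 (F := ZMod 13) (q := 13) (by simp)
    rw [show Nat.gcd 2 (13 - 1) = 2 by decide] at this
    exact Nat.eq_of_mul_eq_mul_left two_pos this
  have cS : Nat.card SL(2, ZMod 13) = 2184 := H12.card_SL2 (F := ZMod 13) (q := 13) (by simp)
  obtain ⟨A, hA, hA'⟩ := h.cent hf (by
    have := congrArg (map μ) pf
    rwa [_root_.commutator_def, map_commutator, map_top_of_surjective μ hμ] at this)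
    (by rw [cP]; norm_num) (by rw [cP]; norm_num)
  obtain ⟨τ, hτ⟩ := H27.exists_lift_of_closed pf (σ := f.comp A.subtype) (fun x => by
      obtain ⟨g, hg, e⟩ : x ∈ A.map f := hA ▸ mem_top x
      exact ⟨⟨g, hg⟩, e⟩)
    (fun z hz => mem_center_iff.2 fun g => Subtype.ext (hA' g g.2 z hz).eq.symm)
    (fun r hr _ => H27.closedAt_sl2 (by simp) (by simp) hr) μ
  let θ := A.subtype.comp τ
  have hθ : ∀ s, f (θ s) = μ s := fun s => DFunLike.congr_fun hτ s
  have hc : ∀ s a, f a = 1 → Commute a (θ s) := fun s a ha => hA' _ (τ s).2 a ha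
  have dec : ∀ g, ∃ s a, f a = 1 ∧ g = θ s * a := fun g => by
    obtain ⟨s, hs⟩ := hμ (f g)
    exact ⟨s, (θ s)⁻¹ * g, by simp [hθ, hs], by simp⟩
  haveI hK : θ.range.Normal := ⟨by
    rintro _ ⟨x, rfl⟩ g
    obtain ⟨s, a, ha, rfl⟩ := dec g
    refine ⟨s * x * s⁻¹, ?_⟩
    rw [mul_assoc (θ s), (hc x a ha).eq]
    simp [mul_assoc]⟩
  have t2 : ∀ a k, f a = 1 → a ^ 2 ^ k = 1 → a ∈ θ.range := fun a k ha hk => by
    refine h.two hc (i := sl 5 0 0 8) (j := sl 0 1 12 0) (y := sl 2 3 2 10)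
      (by decide) (by decide) (by decide) ?_ ?_ ?_ ?_ ?_ (by decide) (by decide) ha hk
    all_goals simp only [hθ]
    · rw [← map_mul, show sl 5 0 0 8 * sl 5 0 0 8 = sl 12 0 0 12 by decide]
      exact (QuotientGroup.eq_one_iff _).2 neg_cen
    · rw [← map_mul, show sl 0 1 12 0 * sl 0 1 12 0 = sl 12 0 0 12 by decide]
      exact (QuotientGroup.eq_one_iff _).2 neg_cen
    · exact mk_ne_one (by decide)
    · exact mk_ne_one (by decide)
    · intro e
      exact mk_ne_one (s := sl 5 0 0 8 * (sl 0 1 12 0)⁻¹) (by decide) (by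
        rw [map_mul, map_inv]; exact mul_inv_eq_one.2 e)
  have no : ∀ r a, r = 3 ∨ r = 7 ∨ r = 13 → f a = 1 → a ^ r = 1 → a = 1 := fun r a hr ha ar => by
    rcases hr with rfl | rfl | rfl
    · exact h.no_odd hc (x := sl 0 1 12 12) (w := sl 0 5 5 0) (by norm_num) (by norm_num)
        (hθ _ ▸ mk_ne_one (by decide)) (by decide) (by decide) ha ar
    · exact h.no_odd hc (x := sl 0 1 12 7) (w := sl 0 5 5 0) (by norm_num) (by norm_num)
        (hθ _ ▸ mk_ne_one (by decide)) (by decide) (by decide) ha ar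
    · exact h.no_odd hc (x := sl 0 1 12 2) (w := sl 0 5 5 0) (by norm_num) (by norm_num)
        (hθ _ ▸ mk_ne_one (by decide)) (by decide) (by decide) ha ar
  have nz : ∀ a r, f a = 1 → f r = 1 → r * a * r⁻¹ ∈ zpowers a := fun a r ha hr => by
    refine mem_of_pp (T := (zpowers a).comap (MulAut.conj r).toMonoidHom) a ?_
    intro b hb p k hp hk
    have fb : f b = 1 := by obtain ⟨n, rfl⟩ := hb; simp [ha]
    by_cases e : p = 7
    · subst e
      have : b = 1 := by
        clear hb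
        induction k with
        | zero => simpa using hk
        | succ k ih => exact ih (no 7 _ (by simp) (by simp [fb]) (by rw [← pow_mul, ← pow_succ, hk]))
      exact this ▸ one_mem _
    · exact zpowers_le.2 hb (h.normal_cyc hc (x := sl 0 1 12 7) (hθ _ ▸ mk_ne_one (by decide))
        (by decide) fb hr hp e hk)
  have ab : ∀ a b, f a = 1 → f b = 1 → Commute a b := fun a b ha hb => by
    by_contra hn
    obtain ⟨x, -, y, -, h1, h2, -⟩ := S4211.key (G := f.ker) (fun H => ⟨fun x hx r => by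
      obtain ⟨n, hn⟩ := nz x r x.2 r.2
      have : r * x * r⁻¹ = x ^ n := Subtype.ext (by simpa using hn.symm)
      exact this ▸ zpow_mem hx n⟩) ⊤ _ ⟨a, ha⟩ trivial ⟨b, hb⟩ trivial
      (fun c => hn (congrArg Subtype.val c.eq)) rfl
    obtain ⟨s, hs⟩ := t2 x 2 x.2 (by
      have := pow_orderOf_eq_one x
      rw [h2] at this
      exact congrArg Subtype.val this)
    exact h1 (Subtype.ext (by simpa [hs] using (hc s y y.2).eq.symm))
  let S : Subgroup G :=
    { carrier := {a | f a = 1 ∧ Odd (orderOf a)}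
      one_mem' := by simp
      mul_mem' := fun {a b} ha hb => ⟨by simp [ha.1, hb.1],
        (ha.2.mul hb.2).of_dvd_nat (ab a b ha.1 hb.1).orderOf_mul_dvd_mul_orderOf⟩
      inv_mem' := fun {a} ha => ⟨by simp [ha.1], by simpa using ha.2⟩ }
  have sq : ∀ s, f (θ s) = 1 → θ s ^ 2 = 1 := fun s hs => by
    rw [← map_pow]
    rcases cen_cases ((QuotientGroup.eq_one_iff _).1 ((hθ s).symm.trans hs)) with rfl | rfl
    · simp
    · rw [show sl 12 0 0 12 ^ 2 = 1 by decide, map_one]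
  refine ⟨θ.range, S, hK, ⟨fun a ha g => ⟨by simp [ha.1], ?_⟩⟩, ?_, ?_, ?_,
    ⟨⟨fun a b => Subtype.ext (ab a b a.2.1 b.2.1).eq⟩⟩, ?_⟩
  · have := ha.2
    rwa [← (MulAut.conj g).orderOf_eq a] at this
  · refine eq_bot_iff.2 ?_
    rintro _ ⟨⟨s, rfl⟩, h1, h2⟩
    rcases (Nat.dvd_prime Nat.prime_two).1 (orderOf_dvd_of_pow_eq_one (sq s h1)) with e | e
    · exact orderOf_eq_one_iff.1 e
    · exact absurd (e ▸ h2) (by decide)
  · refine eq_top_iff.2 fun g _ => ?_
    obtain ⟨s, a, ha, rfl⟩ := dec g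
    refine mul_mem (mem_sup_left ⟨s, rfl⟩) (mem_of_pp a fun b hb p k hp hk => ?_)
    have fb : f b = 1 := by obtain ⟨n, rfl⟩ := hb; simp [ha]
    rcases hp.eq_two_or_odd' with rfl | hp2
    · exact mem_sup_left (t2 b k fb hk)
    · exact mem_sup_right ⟨fb, hp2.pow.of_dvd_nat (orderOf_dvd_of_pow_eq_one hk)⟩
  · by_cases e : θ (sl 12 0 0 12) = 1
    · refine Or.inl ⟨MulEquiv.ofBijective (f.comp θ.range.subtype) ⟨?_, fun x => ?_⟩⟩
      · refine (injective_iff_map_eq_one _).2 ?_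
        rintro ⟨_, s, rfl⟩ hs
        rcases cen_cases ((QuotientGroup.eq_one_iff _).1 ((hθ s).symm.trans hs)) with rfl | rfl
        · exact Subtype.ext (map_one θ)
        · exact Subtype.ext e
      · obtain ⟨s, rfl⟩ := hμ x
        exact ⟨⟨_, s, rfl⟩, hθ s⟩
    · refine Or.inr ⟨(MonoidHom.ofInjective ((injective_iff_map_eq_one θ).2 fun s hs => ?_)).symm⟩
      rcases cen_cases ((QuotientGroup.eq_one_iff _).1
        ((hθ s).symm.trans (by rw [hs, map_one]))) with rfl | rfl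
      · rfl
      · exact absurd hs e
  · refine Nat.coprime_of_dvd fun r hr h1 h2 => ?_
    haveI := Fact.mk hr
    obtain ⟨a, ha⟩ := exists_prime_orderOf_dvd_card' r h2
    have h3 : r ∣ 2184 := cS ▸ h1.trans (card_range_dvd θ)
    have h4 : orderOf (a : G) = r := by simpa using ha
    have h5 : r = 2 ∨ r = 3 ∨ r = 7 ∨ r = 13 := by
      have : r ∈ Nat.primeFactors 2184 := Nat.mem_primeFactors.2 ⟨hr, h3, by norm_num⟩
      rw [show Nat.primeFactors 2184 = {2, 3, 7, 13} by decide +kernel] at this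
      simpa using this
    rcases h5 with rfl | h5
    · exact absurd (h4 ▸ a.2.2) (by decide)
    · have := no r a h5 a.2.1 (h4 ▸ pow_orderOf_eq_one _)
      rw [this, orderOf_one] at h4
      exact hr.one_lt.ne h4

end Cfsg.Agent.MxN
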