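import Cfsg.Agent.S4211
import Cfsg.Agent.H27.MSL2
import Cfsg.Agent.H12.Lin

/-! Groups whose two-prime subgroups outside a normal subgroup have controlled normalizers. -/

set_option autoImplicit false
set_option linter.style.haveILetI false
set_option linter.unusedSectionVars false

namespace Cfsg.Agent.MxN
open Subgroup
open scoped commutatorElement

variable {G P : Type*} [Group G] [Finite G] [Group P] {f : G →* P}

theorem mem_of_pp {T : Subgroup G} (a : G)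
    (h : ∀ b ∈ zpowers a, ∀ p k : ℕ, p.Prime → b ^ p ^ k = 1 → b ∈ T) : a ∈ T := by
  by_contra ha
  have h1 : (T.subgroupOf (zpowers a)).index ≠ 1 := fun e =>
    ha (subgroupOf_eq_top.1 (index_eq_one.1 e) (mem_zpowers a))
  haveI := Fact.mk (Nat.minFac_prime h1)
  obtain ⟨Q⟩ : Nonempty (Sylow (T.subgroupOf (zpowers a)).index.minFac (zpowers a)) :=
    inferInstance
  refine Q.not_dvd_index ((Nat.minFac_dvd _).trans (index_dvd_of_le fun b hb => ?_))
  obtain ⟨k, hk⟩ := Q.isPGroup' ⟨b, hb⟩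
  exact h b b.2 _ k Fact.out (by
    simpa using congrArg (fun x : zpowers a => (x : G)) (congrArg Subtype.val hk))

/-- the normalizer hypothesis -/
def Hyp (f : G →* P) : Prop :=
  ∀ H : Subgroup G, ¬ H ≤ f.ker →
    (∃ p q : ℕ, p.Prime ∧ q.Prime ∧ ∀ r : ℕ, r.Prime → r ∣ Nat.card H → r = p ∨ r = q) →
    Subgroup.normalizer (H : Set G) = Subgroup.normalizer ((H ⊔ f.ker : Subgroup G) : Set G)

theorem Hyp.nrm (h : Hyp f) {H : Subgroup G} (hH : ¬ H ≤ f.ker)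
    (hpq : ∃ p q : ℕ, p.Prime ∧ q.Prime ∧ ∀ r : ℕ, r.Prime → r ∣ Nat.card H → r = p ∨ r = q)
    {g : G} (hg : ∀ x ∈ H, f (g * x * g⁻¹) ∈ H.map f) : ∀ x ∈ H, g * x * g⁻¹ ∈ H := by
  have h1 : g ∈ Subgroup.normalizer ((H ⊔ f.ker : Subgroup G) : Set G) := by
    refine mem_normalizer_fintype fun x hx => ?_
    rw [← comap_map_eq] at hx ⊢
    obtain ⟨y, hy, e⟩ := hx
    have := hg y hy
    show f (g * x * g⁻¹) ∈ H.map f
    simpa only [map_mul, e] using this
  rw [← h H hH hpq] at h1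
  exact fun x hx => (mem_normalizer_iff.1 h1 x).1 hx

theorem Hyp.cyc (h : Hyp f) {u : G} (hu : f u ≠ 1) {p q m n : ℕ} (hp : p.Prime) (hq : q.Prime)
    (ho : u ^ (p ^ m * q ^ n) = 1) {g : G} (hg : f (g * u * g⁻¹) ∈ zpowers (f u)) :
    ∃ k : ℕ, g * u * g⁻¹ = u ^ k := by
  have := h.nrm (H := zpowers u) (fun hl => hu (hl (mem_zpowers u)))
    ⟨p, q, hp, hq, fun r hr hd => by
      rw [Nat.card_zpowers] at hd
      rcases (hr.dvd_mul).1 (hd.trans (orderOf_dvd_of_pow_eq_one ho)) with h1 | h1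
      · exact Or.inl ((Nat.prime_dvd_prime_iff_eq hr hp).1 (hr.dvd_of_dvd_pow h1))
      · exact Or.inr ((Nat.prime_dvd_prime_iff_eq hr hq).1 (hr.dvd_of_dvd_pow h1))⟩
    (g := g) (by
      rintro _ ⟨k, rfl⟩
      rw [MonoidHom.map_zpowers, ← conj_zpow, map_zpow]
      exact zpow_mem hg k) u (mem_zpowers u)
  obtain ⟨k, hk⟩ := (mem_powers_iff_mem_zpowers.2 this)
  exact ⟨k, hk.symm⟩

theorem comm_of_pow {a g : G} {p m n : ℕ} (ha : a ^ p ^ m = 1) (hc : n.Coprime p)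
    (h : Commute (a ^ n) g) : Commute a g := by
  have h1 : (orderOf a).Coprime n :=
    Nat.Coprime.coprime_dvd_left (orderOf_dvd_of_pow_eq_one ha) (hc.symm.pow_left m)
  obtain ⟨k, hk⟩ := exists_pow_eq_self_of_coprime h1.symm
  rw [← hk]
  exact h.pow_left k

theorem Hyp.comm (h : Hyp f) {a g : G} (ha : f a = 1) (hg : f g ≠ 1) {p q m n : ℕ} (hp : p.Prime)
    (hq : q.Prime) (hpq : q ≠ p) (h1 : a ^ p ^ m = 1) (h2 : g ^ q ^ n = 1) : Commute a g := by
  obtain ⟨k, hk⟩ := h.cyc hg (m := 0) hq hq (by simpa using h2) (g := a) (by simp [ha])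
  have h3 : f g ^ k = f g := by rw [← map_pow, ← hk]; simp [ha]
  have h4 : (q : ℤ) ∣ (k : ℤ) - 1 := by
    have h5 : orderOf (f g) ∣ q ^ n := orderOf_dvd_of_pow_eq_one (by rw [← map_pow, h2, map_one])
    obtain ⟨j, -, hj⟩ := (Nat.dvd_prime_pow hq).1 h5
    have h6 : (orderOf (f g) : ℤ) ∣ (k : ℤ) - 1 := by
      rw [orderOf_dvd_iff_zpow_eq_one, zpow_sub, zpow_natCast, h3]; simp
    refine Dvd.dvd.trans ?_ h6
    rcases j with _ | j
    · exact absurd (orderOf_eq_one_iff.1 (by simpa using hj)) hg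
    · rw [hj]; exact_mod_cast Dvd.intro_left _ (pow_succ q j).symm
  have h5 : ∀ j : ℕ, a ^ j * g * (a ^ j)⁻¹ = g ^ k ^ j := fun j => by
    induction j with
    | zero => simp
    | succ j ih =>
      rw [pow_succ' a, mul_inv_rev, show a * a ^ j * g * ((a ^ j)⁻¹ * a⁻¹) =
        a * (a ^ j * g * (a ^ j)⁻¹) * a⁻¹ by group, ih, ← conj_pow, hk, ← pow_mul, pow_succ']
  refine comm_of_pow h1 (((Nat.coprime_primes hq hp).2 hpq).pow_left n) ?_
  have h6 := dvd_sub_pow_of_dvd_sub h4 n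
  have h7 : g ^ k ^ q ^ n = g := by
    have : g ^ (((k ^ q ^ n : ℕ) : ℤ) - 1) = 1 := by
      rw [← orderOf_dvd_iff_zpow_eq_one]
      refine Dvd.dvd.trans ?_ (by simpa using h6)
      exact_mod_cast (orderOf_dvd_of_pow_eq_one h2).trans (pow_dvd_pow q n.le_succ)
    rwa [zpow_sub, zpow_natCast, zpow_one, mul_inv_eq_one] at this
  have := h5 (q ^ n)
  rw [h7, mul_inv_eq_iff_eq_mul] at this
  exact this

theorem Hyp.cent (h : Hyp f) (hf : Function.Surjective f) [IsSimpleGroup P]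
    (hP : commutator P = ⊤) (h7 : 7 ∣ Nat.card P) (h13 : 13 ∣ Nat.card P) :
    ∃ A : Subgroup G, A.map f = ⊤ ∧ ∀ g ∈ A, ∀ a, f a = 1 → Commute a g := by
  obtain ⟨A, ⟨hn, hA⟩, hm⟩ := (Set.toFinite {A : Subgroup G | A.Normal ∧ A.map f = ⊤}).exists_minimal
    ⟨⊤, inferInstance, map_top_of_surjective f hf⟩
  refine ⟨A, hA, fun g hg a ha => ?_⟩
  refine (mem_centralizer_singleton_iff.1 (mem_of_pp (T := centralizer {g}) a ?_))
  intro b hb p k hp hk
  let C : Subgroup G := centralizer {c | f c = 1 ∧ ∃ j, c ^ p ^ j = 1}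
  have hC : C.Normal := ⟨fun x hx y c ⟨h1, j, h2⟩ => by
    have := hx (y⁻¹ * c * y) ⟨by simp [h1], j, by
      rw [show y⁻¹ * c * y = y⁻¹ * c * y⁻¹⁻¹ by simp, conj_pow, h2]; simp⟩
    calc c * (y * x * y⁻¹) = y * (y⁻¹ * c * y * x) * y⁻¹ := by group
      _ = _ := by rw [this]; group⟩
  have h1 : C.map f = ⊤ := by
    refine (hC.map f hf).eq_bot_or_eq_top.resolve_left fun e => ?_
    obtain ⟨q, hq, hqp, hd⟩ : ∃ q : ℕ, q.Prime ∧ q ≠ p ∧ q ∣ Nat.card P := by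
      by_cases e : p = 7
      · exact ⟨13, by norm_num, by omega, h13⟩
      · exact ⟨7, by norm_num, Ne.symm e, h7⟩
    haveI := Fact.mk hq
    obtain ⟨Q⟩ : Nonempty (Sylow q G) := inferInstance
    refine Q.not_dvd_index (hd.trans ?_)
    rw [← card_top, ← MonoidHom.range_eq_top.2 hf, ← index_ker]
    refine index_dvd_of_le fun x hx => ?_
    by_contra hx1
    obtain ⟨n, hn⟩ := Q.isPGroup' ⟨x, hx⟩
    exact hx1 ((Subgroup.map_eq_bot_iff _).1 e fun c ⟨c1, j, c2⟩ =>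
      (h.comm c1 hx1 hp hq hqp c2 (by simpa using congrArg Subtype.val hn)).eq)
  have h2 : A ≤ ⁅A, C⁆ := hm ⟨inferInstance, by rw [map_commutator, hA, h1]; exact hP⟩
    (commutator_le_left A C)
  obtain ⟨z, rfl⟩ := hb
  exact mem_centralizer_singleton_iff.2 ((h2.trans (commutator_le_right A C)) hg _ ⟨by simp [ha], k, hk⟩)

end Cfsg.Agent.MxN
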